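import Mathlib

/-!
TI-subgroups with centralisers of odd order: involutions in the cosets of the normaliser.
-/

set_option autoImplicit false
set_option linter.style.haveILetI false
set_option linter.unusedSectionVars false

open scoped Pointwise

namespace Cfsg.Agent.H77.TIInv

variable {G : Type*} [Group G] [Finite G]

/-- The involutions of a group. -/
def invs (G : Type*) [Group G] : Set G := {g | orderOf g = 2}

/-- A TI-subgroup `M`, an involution `z` of its normaliser, centralisers of nonidentity elements of `M` of odd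
order, and more involutions than cosets of `M`. -/
structure Hyp (M : Subgroup G) (z : G) : Prop where
  ne : M ≠ ⊥
  ti : ∀ g : G, M ⊓ M.map (MulAut.conj g).toMonoidHom ≠ ⊥ → M.map (MulAut.conj g).toMonoidHom = M
  ord : orderOf z = 2
  zN : z ∈ Subgroup.normalizer (M : Set G)
  fac : M ⊔ (Subgroup.normalizer (M : Set G) ⊓ Subgroup.centralizer ({z} : Set G)) = Subgroup.normalizer (M : Set G)
  odd : ∀ x ∈ M, x ≠ 1 → Odd (Nat.card ↥(Subgroup.centralizer ({x} : Set G)))
  big : M.index < Nat.card (invs G)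

/-- The normaliser of `M`. -/
abbrev nz (M : Subgroup G) : Subgroup G := Subgroup.normalizer (M : Set G)

/-- The centraliser of `z` in the normaliser of `M`. -/
abbrev cz (M : Subgroup G) (z : G) : Subgroup G :=
  Subgroup.normalizer (M : Set G) ⊓ Subgroup.centralizer ({z} : Set G)

omit [Finite G] in
theorem mul_self_of_invs {u : G} (hu : u ∈ invs G) : u * u = 1 := by
  rw [← pow_two, ← (hu : orderOf u = 2), pow_orderOf_eq_one]

omit [Finite G] in
theorem inv_of_invs {u : G} (hu : u ∈ invs G) : u⁻¹ = u :=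
  inv_eq_of_mul_eq_one_right (mul_self_of_invs hu)

omit [Finite G] in
theorem ne_one_of_invs {u : G} (hu : u ∈ invs G) : u ≠ 1 := by
  rintro rfl
  simp [invs] at hu

omit [Finite G] in
theorem conj_mem_invs {u : G} (g : G) (hu : u ∈ invs G) : g * u * g⁻¹ ∈ invs G := by
  show orderOf (g * u * g⁻¹) = 2
  rw [show g * u * g⁻¹ = (MulAut.conj g).toMonoidHom u from rfl,
    orderOf_injective _ (MulAut.conj g).injective]
  exact hu

omit [Finite G] in
theorem invs_of_mul_self {u : G} (h : u * u = 1) (hne : u ≠ 1) : u ∈ invs G :=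
  orderOf_eq_prime (by rw [pow_two, h]) hne

theorem exists_invs_of_even {D : Subgroup G} (h : 2 ∣ Nat.card D) : ∃ u ∈ D, u ∈ invs G := by
  haveI : Fact (Nat.Prime 2) := ⟨Nat.prime_two⟩
  obtain ⟨u, hu⟩ := exists_prime_orderOf_dvd_card' (G := D) 2 h
  refine ⟨u, u.2, ?_⟩
  show orderOf (u : G) = 2
  rw [Subgroup.orderOf_coe]
  exact hu

namespace Hyp

variable {M : Subgroup G} {z : G} (H : Hyp M z)

include H

theorem z_inv : z ∈ invs G := H.ord

theorem zz : z * z = 1 := mul_self_of_invs H.z_inv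

theorem z_ne : z ≠ 1 := ne_one_of_invs H.z_inv

/-- An involution commuting with an element of `M` forces that element to be trivial. -/
theorem free {u m : G} (hu : u ∈ invs G) (hm : m ∈ M) (hc : u * m = m * u) : m = 1 := by
  by_contra hne
  refine Nat.not_even_iff_odd.2 (H.odd m hm hne) ?_
  have hmem : u ∈ Subgroup.centralizer ({m} : Set G) := Subgroup.mem_centralizer_singleton_iff.2 hc
  rw [even_iff_two_dvd, ← (hu : orderOf u = 2)]
  exact Subgroup.orderOf_dvd_natCard _ hmem

/-- The TI property in element form. -/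
theorem mem_nz {g m : G} (hm : m ∈ M) (hne : m ≠ 1) (hgm : g * m * g⁻¹ ∈ M) : g ∈ nz M := by
  have h : M.map (MulAut.conj g).toMonoidHom = M := by
    refine H.ti g fun e => hne ?_
    have : g * m * g⁻¹ ∈ M ⊓ M.map (MulAut.conj g).toMonoidHom := ⟨hgm, m, hm, rfl⟩
    rw [e, Subgroup.mem_bot, conj_eq_one_iff] at this
    exact this
  refine Subgroup.mem_normalizer_iff.2 fun x => ⟨fun hx => ?_, fun hx => ?_⟩
  · rw [← h]; exact ⟨x, hx, rfl⟩
  · rw [← h] at hx
    obtain ⟨y, hy, e⟩ := hx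
    rwa [← (MulAut.conj g).injective e]

theorem two_not_dvd : ¬ 2 ∣ Nat.card M := by
  intro h
  obtain ⟨u, hu, hu2⟩ := exists_invs_of_even h
  exact ne_one_of_invs hu2 (H.free hu2 hu rfl)

theorem eq_one_of_sq {m : G} (hm : m ∈ M) (h : m * m = 1) : m = 1 := by
  by_contra hne
  exact H.two_not_dvd (by
    rw [← (invs_of_mul_self h hne : orderOf m = 2)]
    exact Subgroup.orderOf_dvd_natCard _ hm)

/-- An involution normalising `M` inverts it. -/
theorem invert {u : G} (hu : u ∈ invs G) (hN : u ∈ nz M) {m : G} (hm : m ∈ M) : u * m * u⁻¹ = m⁻¹ := by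
  let σ : M →* M :=
    { toFun := fun x => ⟨u * x.1 * u⁻¹, (Subgroup.mem_normalizer_iff.1 hN x.1).1 x.2⟩
      map_one' := Subtype.ext (by simp)
      map_mul' := fun x y => Subtype.ext (by simp [mul_assoc]) }
  have h2 : Function.Involutive σ := fun x => Subtype.ext (by
    show u * (u * x.1 * u⁻¹) * u⁻¹ = x.1
    rw [show u * (u * x.1 * u⁻¹) * u⁻¹ = (u * u) * x.1 * (u * u)⁻¹ by group, mul_self_of_invs hu]
    group)
  have hf : MonoidHom.FixedPointFree σ := fun x hx =>
    Subtype.ext (H.free hu x.2 (mul_inv_eq_iff_eq_mul.1 (congrArg Subtype.val hx)))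
  exact congrArg Subtype.val (congrFun (hf.coe_eq_inv_of_involutive h2) ⟨m, hm⟩)

theorem z_invert {m : G} (hm : m ∈ M) : z * m * z⁻¹ = m⁻¹ := H.invert H.z_inv H.zN hm

theorem comm {m k : G} (hm : m ∈ M) (hk : k ∈ M) : m * k = k * m := by
  have h := H.z_invert (mul_mem hm hk)
  rw [show z * (m * k) * z⁻¹ = (z * m * z⁻¹) * (z * k * z⁻¹) by group, H.z_invert hm, H.z_invert hk,
    ← mul_inv_rev] at h
  exact (inv_injective h).symm

theorem z_mem : z ∈ cz M z := ⟨H.zN, Subgroup.mem_centralizer_singleton_iff.2 rfl⟩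

omit H [Finite G] in
theorem commute_z {c : G} (hc : c ∈ cz M z) : c * z = z * c :=
  Subgroup.mem_centralizer_singleton_iff.1 hc.2

omit H [Finite G] in
theorem conj_mem {n m : G} (hn : n ∈ nz M) (hm : m ∈ M) : n * m * n⁻¹ ∈ M :=
  (Subgroup.mem_normalizer_iff.1 hn m).1 hm

theorem eq_one_of_mem {c : G} (hm : c ∈ M) (hc : c ∈ cz M z) : c = 1 :=
  H.free H.z_inv hm (commute_z hc).symm

omit [Finite G] in
theorem decompose {n : G} (hn : n ∈ nz M) : ∃ m ∈ M, ∃ c ∈ cz M z, n = m * c := by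
  have h : n ∈ ((M ⊔ cz M z : Subgroup G) : Set G) := by rw [H.fac]; exact hn
  rw [Subgroup.coe_mul_of_right_le_normalizer_left M (cz M z) inf_le_left] at h
  obtain ⟨m, hm, c, hc, rfl⟩ := h
  exact ⟨m, hm, c, hc, rfl⟩

theorem unique {m m' c c' : G} (hm : m ∈ M) (hm' : m' ∈ M) (hc : c ∈ cz M z) (hc' : c' ∈ cz M z)
    (h : m * c = m' * c') : m = m' ∧ c = c' := by
  have e : m'⁻¹ * m = c' * c⁻¹ := by
    rw [eq_mul_inv_iff_mul_eq, mul_assoc, h, inv_mul_cancel_left]
  have h1 : c' * c⁻¹ = 1 := H.eq_one_of_mem (e ▸ mul_mem (inv_mem hm') hm) (mul_mem hc' (inv_mem hc))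
  rw [h1] at e
  exact ⟨(inv_mul_eq_one.1 e).symm, (mul_inv_eq_one.1 h1).symm⟩

/-- The component in `C` of an element of the normaliser. -/
theorem exists_proj : ∃ π : nz M →* cz M z, ∀ (n : nz M), (n : G) * ((π n : cz M z) : G)⁻¹ ∈ M := by
  have h : ∀ n : nz M, ∃ c : cz M z, (n : G) * (c : G)⁻¹ ∈ M := fun n => by
    obtain ⟨m, hm, c, hc, e⟩ := H.decompose n.2
    exact ⟨⟨c, hc⟩, by rw [e, mul_inv_cancel_right]; exact hm⟩
  choose f hf using h
  have huniq : ∀ (n : nz M) (c : cz M z), (n : G) * (c : G)⁻¹ ∈ M → f n = c := fun n c hc =>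
    Subtype.ext (H.unique (hf n) hc (f n).2 c.2 (by simp)).2
  refine ⟨{ toFun := f
            map_one' := huniq 1 1 (by simp)
            map_mul' := fun a b => huniq (a * b) (f a * f b) ?_ }, hf⟩
  have : ((a * b : nz M) : G) * ((f a * f b : cz M z) : G)⁻¹
      = (a : G) * (f a : G)⁻¹ * ((f a : G) * ((b : G) * (f b : G)⁻¹) * (f a : G)⁻¹) := by
    push_cast
    group
  rw [this]
  exact mul_mem (hf a) (conj_mem (f a).2.1 (hf b))

theorem card_nz : Nat.card (nz M) = Nat.card M * Nat.card (cz M z) := by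
  rw [← Nat.card_prod]
  refine (Nat.card_eq_of_bijective
    (fun p : M × cz M z => (⟨(p.1 : G) * (p.2 : G), mul_mem (Subgroup.le_normalizer p.1.2) p.2.2.1⟩ : nz M))
    ⟨fun p q h => ?_, fun n => ?_⟩).symm
  · obtain ⟨h1, h2⟩ := H.unique p.1.2 q.1.2 p.2.2 q.2.2 (congrArg Subtype.val h)
    exact Prod.ext (Subtype.ext h1) (Subtype.ext h2)
  · obtain ⟨m, hm, c, hc, e⟩ := H.decompose n.2
    exact ⟨(⟨m, hm⟩, ⟨c, hc⟩), Subtype.ext e.symm⟩

theorem index_eq : M.index = (nz M).index * Nat.card (cz M z) := by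
  have h1 := M.card_mul_index
  rw [← (nz M).card_mul_index, H.card_nz] at h1
  have hpos : 0 < Nat.card M := Nat.card_pos
  nlinarith [h1]

/-- The involutions normalising `M` lie in `M z`. -/
theorem invs_nz {u : G} (hu : u ∈ invs G) (hN : u ∈ nz M) : u * z ∈ M := by
  obtain ⟨m, hm, c, hc, e⟩ := H.decompose hN
  have hinv : ∀ x ∈ M, c * x * c⁻¹ = x⁻¹ := fun x hx => by
    have h := H.invert hu hN hx
    rw [e, show m * c * x * (m * c)⁻¹ = m * (c * x * c⁻¹) * m⁻¹ by group,
      H.comm hm (conj_mem hc.1 hx), mul_inv_cancel_right] at h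
    exact h
  have hcc : c * c = 1 := by
    have h := mul_self_of_invs hu
    rw [e, show m * c * (m * c) = m * (c * m * c⁻¹) * (c * c) by group, hinv m hm, mul_inv_cancel, one_mul] at h
    exact h
  have hcz : (c * z) * (c * z) = 1 := by
    rw [show c * z * (c * z) = c * (z * c) * z by group, ← commute_z hc,
      show c * (c * z) * z = (c * c) * (z * z) by group, hcc, H.zz, one_mul]
  obtain ⟨x, hx, hx1⟩ := (Subgroup.bot_or_exists_ne_one M).resolve_left H.ne
  have hczx : (c * z) * x * (c * z)⁻¹ = x := by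
    rw [show (c * z) * x * (c * z)⁻¹ = c * (z * x * z⁻¹) * c⁻¹ by group, H.z_invert hx, hinv _ (inv_mem hx),
      inv_inv]
  have h1 : c * z = 1 := by
    by_contra hne
    exact hx1 (H.free (invs_of_mul_self hcz hne) hx (mul_inv_eq_iff_eq_mul.1 hczx))
  rw [e, mul_assoc, h1, mul_one]
  exact hm

omit [Finite G] in
theorem mz_invs' {m : G} (hinv : z * m * z⁻¹ = m⁻¹) (hne : m * z ≠ 1) : m * z ∈ invs G := by
  refine invs_of_mul_self ?_ hne
  rw [show m * z * (m * z) = m * (z * m * z⁻¹) * (z * z) by group, hinv, mul_inv_cancel, one_mul,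
    ← pow_two, ← H.ord, pow_orderOf_eq_one]

theorem mz_invs {m : G} (hm : m ∈ M) : m * z ∈ invs G := by
  refine H.mz_invs' (H.z_invert hm) fun e => ?_
  exact H.z_ne (H.eq_one_of_mem (eq_inv_of_mul_eq_one_right e ▸ inv_mem hm) H.z_mem)

/-- Two involutions in one coset of `M` outside the normaliser coincide. -/
theorem coset_unique {u v : G} (hu : u ∈ invs G) (hv : v ∈ invs G) (huN : u ∉ nz M) (h : u⁻¹ * v ∈ M) :
    u = v := by
  by_contra hne
  apply huN
  refine H.mem_nz h (fun e => hne (inv_mul_eq_one.1 e)) ?_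
  rw [show u * (u⁻¹ * v) * u⁻¹ = v * u⁻¹ by group]
  have : v * u⁻¹ = (u⁻¹ * v)⁻¹ := by
    rw [mul_inv_rev, inv_inv, inv_of_invs hu, inv_of_invs hv]
  rw [this]
  exact inv_mem h

end Hyp

end Cfsg.Agent.H77.TIInv
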