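import Cfsg.Agent.H77.TIInv.Orbits
import Cfsg.Agent.H77.TIInv.PGL
import Cfsg.Agent.H7.ZassIdent
import Cfsg.Agent.H7.ZassEven
import Cfsg.Agent.H7.ZassLarge

/-!
`|C_N(z)| > 2`: the cosets of the normaliser carry a Zassenhaus group.
-/

set_option autoImplicit false
set_option linter.style.haveILetI false
set_option linter.unusedSectionVars false

open MulAction

namespace Cfsg.Agent.H77.TIInv.Hyp

universe u

variable {G : Type u} [Group G] [Finite G] {M : Subgroup G} {z : G} (H : Hyp M z)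

include H

theorem fix_unique (h2 : 2 < Nat.card (cz M z)) {ω ω' : G ⧸ nz M} (hω : ω ∈ H.Fix) (hω' : ω' ∈ H.Fix) :
    ω = ω' := by
  by_contra hne
  obtain ⟨u, hu, -, huz, hinv, -⟩ := H.fixed_data hω.1 hω.2
  obtain ⟨v, hv, -, hvz, hinv', -⟩ := H.fixed_data hω'.1 hω'.2
  have hcen : ∀ c ∈ cz M z, (u * v) * c = c * (u * v) := by
    intro c hc
    have h : (u * v) * c * (u * v)⁻¹ = c := by
      rw [show (u * v) * c * (u * v)⁻¹ = u * (v * c * v⁻¹) * u⁻¹ by group, hinv' c hc, hinv _ (inv_mem hc), inv_inv]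
    exact mul_inv_eq_iff_eq_mul.1 h
  have hgz : (u * v) * z = z * (u * v) := by
    rw [mul_assoc, hvz, ← mul_assoc, huz, mul_assoc]
  have hgN : u * v ∉ nz M := fun hN => hne (by
    rw [← hu.2, ← hv.2]
    refine QuotientGroup.eq.2 ?_
    rwa [inv_of_invs hu.1])
  have hb : ((u * v : G) : G ⧸ nz M) ≠ base M := fun e => hgN (eq_base_iff.1 e)
  have hzfix : z • ((u * v : G) : G ⧸ nz M) = ((u * v : G) : G ⧸ nz M) := by
    refine QuotientGroup.eq.2 ?_
    show (z * (u * v))⁻¹ * (u * v) ∈ nz M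
    rw [← hgz]
    have e : ((u * v) * z)⁻¹ * (u * v) = z⁻¹ := by group
    rw [e]
    exact inv_mem H.zN
  obtain ⟨w, hw, -, hwz, hinv'', -⟩ := H.fixed_data hb hzfix
  have hc0 : w⁻¹ * (u * v) ∈ cz M z := by
    refine ⟨QuotientGroup.eq.1 hw.2, Subgroup.mem_centralizer_singleton_iff.2 ?_⟩
    rw [inv_of_invs hw.1, mul_assoc w, hgz, ← mul_assoc w, hwz, mul_assoc z]
  have hsq : ∀ c ∈ cz M z, c * c = 1 := by
    intro c hc
    have h1 : (u * v) * c * (u * v)⁻¹ = c := mul_inv_eq_iff_eq_mul.2 (hcen c hc)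
    have h2' : (w⁻¹ * (u * v)) * c * (w⁻¹ * (u * v))⁻¹ = c :=
      mul_inv_eq_iff_eq_mul.2 (H.cz_comm hω.1 hω.2 hc0 hc)
    have h3 : w * c * w⁻¹ = c := by
      conv_lhs => rw [← h2']
      rw [show w * (w⁻¹ * (u * v) * c * (w⁻¹ * (u * v))⁻¹) * w⁻¹ = (u * v) * c * (u * v)⁻¹ by group, h1]
    rw [hinv'' c hc] at h3
    nth_rewrite 1 [← h3]
    exact inv_mul_cancel c
  have hle : Nat.card (cz M z) ≤ 2 := by
    refine (Nat.card_le_card_of_surjective (fun b : Bool => if b then (1 : cz M z) else ⟨z, H.z_mem⟩) fun c => ?_).trans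
      (by simp)
    by_cases hc : (c : G) = 1
    · exact ⟨true, Subtype.ext (by simp [hc])⟩
    · refine ⟨false, Subtype.ext ?_⟩
      have hm := H.invs_nz (invs_of_mul_self (hsq c c.2) hc) c.2.1
      have h4 := H.eq_one_of_mem hm (mul_mem c.2 H.z_mem)
      simp only [Bool.false_eq_true, if_false]
      rw [eq_inv_of_mul_eq_one_left h4, inv_of_invs H.z_inv]
  omega

/-- The Zassenhaus case. -/
theorem large (hn : ¬ M.Normal) (h2 : 2 < Nat.card (cz M z)) :
    ∃ p f : ℕ, p.Prime ∧ (∀ x ∈ M, x ^ p = 1) ∧ Nat.card M = p ^ f ∧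
      ∃ (F : Type) (_ : Field F) (_ : Fintype F), Fintype.card F = Nat.card M ∧
        (Nonempty (G ≃* (GL (Fin 2) F ⧸ Subgroup.center (GL (Fin 2) F))) ∨
          (Fintype.card F % 4 = 1 ∧ Nonempty (G ≃* Matrix.ProjectiveSpecialLinearGroup (Fin 2) F))) := by
  classical
  letI := Fintype.ofFinite (G ⧸ nz M)
  obtain ⟨⟨b, hb⟩⟩ : Nonempty H.Fix := (Nat.card_pos_iff.1 (H.fix_pos hn)).1
  have hk : Nat.card H.Fix = 1 := by
    haveI : Subsingleton H.Fix := ⟨fun x y => Subtype.ext (H.fix_unique h2 x.2 y.2)⟩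
    haveI : Nonempty H.Fix := ⟨⟨b, hb⟩⟩
    exact Nat.card_eq_one_iff_unique.2 ⟨inferInstance, inferInstance⟩
  set a := base M with hadef
  obtain ⟨hba, hzb⟩ := hb
  obtain ⟨u, hu, huN, huz, hinv, -, -, hst⟩ := H.fixed_data hba hzb
  have hna : ∀ n ∈ nz M, n • a = a := fun n hn' => by
    show ((n * 1 : G) : G ⧸ nz M) = base M
    rw [mul_one, eq_base_iff]
    exact hn'
  have hfixa : ∀ g : G, g • a = a → g ∈ nz M := fun g hg => by
    change ((g * 1 : G) : G ⧸ nz M) = base M at hg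
    rwa [mul_one, eq_base_iff] at hg
  have ua : u • a = b := by
    show ((u * 1 : G) : G ⧸ nz M) = b
    rw [mul_one, hu.2]
  have ub : u • b = a := by rw [← ua, ← mul_smul, mul_self_of_invs hu.1, one_smul]
  have hMN : ∀ {n : G}, n ∈ M → n ∈ nz M := fun hn' => Subgroup.le_normalizer hn'
  have hpt : ∀ {x : G ⧸ nz M}, x ≠ a → ∃ n ∈ M, x = n • b := by
    intro x hx
    obtain ⟨n, hn', w, hw1, hw2, rfl⟩ := H.cover hx
    exact ⟨n, hn', by rw [H.fix_unique h2 (show w ∈ H.Fix from ⟨hw1, hw2⟩) (show b ∈ H.Fix from ⟨hba, hzb⟩)]⟩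
  have hMinj : ∀ {n n' : G}, n ∈ M → n' ∈ M → n • b = n' • b → n = n' := fun hn1 hn2 e =>
    (H.translate_inj hn1 hn2 hba hzb hzb e).1
  have hcN : ∀ {c : G}, c ∈ cz M z → c • a = a ∧ c • b = b := fun {c} hc => ⟨hna c hc.1, (hst c hc.1).2 hc⟩
  have hab_cz : ∀ {g : G}, g • a = a → g • b = b → g ∈ cz M z := fun {g} ga gb => (hst g (hfixa g ga)).1 gb
  have hcsmul : ∀ {c n : G}, c ∈ cz M z → c • (n • b) = (c * n * c⁻¹) • b := fun {c n} hc => by
    rw [mul_smul, mul_smul, inv_smul_eq_iff.2 (hcN hc).2.symm]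
  have hfix3 : ∀ {c n : G}, c ∈ cz M z → n ∈ M → c • (n • b) = n • b → c * n = n * c := by
    intro c n hc hn' e
    rw [hcsmul hc] at e
    exact mul_inv_eq_iff_eq_mul.1 (hMinj (conj_mem hc.1 hn') hn' e)
  -- elements of `C` act without fixed points on `M`
  have semireg : ∀ c ∈ cz M z, ∀ m₀ ∈ M, m₀ ≠ 1 → c * m₀ = m₀ * c → c = 1 := by
    intro c hc m₀ hm₀ hne hcm
    obtain ⟨ca, cb⟩ := hcN hc
    have hcu : c * u = u * c⁻¹ := by
      have h := hinv _ (inv_mem hc)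
      rw [inv_inv] at h
      exact (mul_inv_eq_iff_eq_mul.1 h).symm
    have hconj : ∀ {m : G}, c * m = m * c → c * (u * m * u⁻¹) = (u * m * u⁻¹) * c := by
      intro m hm
      have e1 : c⁻¹ * m = m * c⁻¹ := (show Commute c m from hm).inv_left.eq
      have e2 : u⁻¹ * c = c⁻¹ * u⁻¹ := by
        rw [← mul_inv_rev, eq_comm, inv_eq_iff_eq_inv, mul_inv_rev, inv_inv]
        have h := hinv c hc
        rw [mul_inv_eq_iff_eq_mul] at h
        rw [h]
      calc c * (u * m * u⁻¹) = (c * u) * m * u⁻¹ := by group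
        _ = u * (c⁻¹ * m) * u⁻¹ := by rw [hcu]; group
        _ = u * m * (c⁻¹ * u⁻¹) := by rw [e1]; group
        _ = (u * m * u⁻¹) * c := by rw [← e2]; group
    have hcfix : ∀ {g : G}, c * g = g * c → ∀ {p : G ⧸ nz M}, c • p = p → c • (g • p) = g • p :=
      fun {g} hg {p} hp => by rw [← mul_smul, hg, mul_smul, hp]
    set m₁ := u * m₀ * u⁻¹ with hm₁
    have hc1 : c * m₁ = m₁ * c := hconj hcm
    have hu' : ∀ p : G ⧸ nz M, u⁻¹ • p = u • p := fun p => by rw [inv_of_invs hu.1]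
    have m1b : m₁ • b = b := by
      rw [mul_smul, mul_smul, hu', ub, hna m₀ (hMN hm₀), ua]
    have m1a : m₁ • a ≠ a := by
      rw [mul_smul, mul_smul, hu', ua]
      intro e
      have e' : m₀ • b = (1 : G) • b := by
        rw [one_smul]; exact smul_left_cancel u (e.trans ub.symm)
      exact hne (hMinj hm₀ (one_mem M) e')
    obtain ⟨x, hx, hxp⟩ := hpt m1a
    have hcx : c * x = x * c := hfix3 hc hx (by rw [← hxp]; exact hcfix hc1 ca)
    set g := x⁻¹ * m₁ with hg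
    have hcg : c * g = g * c := ((show Commute c x from hcx).inv_right.mul_right hc1).eq
    have gab : g • a = b := by rw [mul_smul, hxp, inv_smul_smul]
    have hq : g • b ≠ b := fun e => hba (smul_left_cancel g (e.trans gab.symm))
    have hr : u • (g • b) ≠ a := fun e => hq (smul_left_cancel u (e.trans ub.symm))
    obtain ⟨x', hx', hxr⟩ := hpt hr
    have hcr : c • (u • (g • b)) = u • (g • b) := by
      rw [← mul_smul, hcu, mul_smul, inv_smul_eq_iff.2 (hcfix hcg cb).symm]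
    have hcx' : c * x' = x' * c := hfix3 hc hx' (by rw [← hxr]; exact hcr)
    set y := u * x'⁻¹ * u⁻¹ with hy
    have hcy : c * y = y * c := hconj (show Commute c x' from hcx').inv_right.eq
    have yb : y • b = b := by
      rw [mul_smul, mul_smul, hu', ub, hna _ (inv_mem (hMN hx')), ua]
    have yq : y • (g • b) = a := by
      rw [mul_smul, mul_smul, hu', hxr, inv_smul_smul, ub]
    have hd : u * (y * g) ∈ cz M z := by
      refine hab_cz ?_ ?_
      · rw [mul_smul, mul_smul, gab, yb, ub]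
      · rw [mul_smul, mul_smul, yq, ua]
    have h1 : (y * g) * c * (y * g)⁻¹ = c :=
      mul_inv_eq_iff_eq_mul.2 ((show Commute c y from hcy).mul_right hcg).eq.symm
    have h2' : (u * (y * g)) * c * (u * (y * g))⁻¹ = c :=
      mul_inv_eq_iff_eq_mul.2 (H.cz_comm hba hzb hd hc)
    rw [show (u * (y * g)) * c * (u * (y * g))⁻¹ = u * ((y * g) * c * (y * g)⁻¹) * u⁻¹ by group, h1,
      hinv c hc] at h2'
    by_contra hc1'
    have hcc : c * c = 1 := by nth_rewrite 1 [← h2']; exact inv_mul_cancel c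
    exact hne (H.free (invs_of_mul_self hcc hc1') hm₀ hcm)
  have key : ∀ {x y : G ⧸ nz M}, x ≠ y → ∃ g : G, g • x = a ∧ g • y = b := by
    intro x y hxy
    have step : ∀ {y : G ⧸ nz M}, y ≠ a → ∃ g : G, g • a = a ∧ g • y = b := by
      intro y hy
      obtain ⟨n, hn', rfl⟩ := hpt hy
      exact ⟨n⁻¹, hna _ (inv_mem (hMN hn')), inv_smul_smul n b⟩
    by_cases hx : x = a
    · subst hx; exact step hxy.symm
    · obtain ⟨n, hn', rfl⟩ := hpt hx
      have h1 : (u * n⁻¹) • (n • b) = a := by rw [mul_smul, inv_smul_smul, ub]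
      obtain ⟨g, g1, g2⟩ := step (y := (u * n⁻¹) • y) fun e => hxy (smul_left_cancel _ (h1.trans e.symm))
      exact ⟨g * (u * n⁻¹), by rw [mul_smul, h1, g1], by rw [mul_smul, g2]⟩
  have hthree : ∀ g : G, ∀ x y w : G ⧸ nz M, x ≠ y → y ≠ w → x ≠ w → g • x = x → g • y = y → g • w = w →
      g = 1 := by
    intro g x y w hxy hyw hxw gx gy gw
    obtain ⟨k, kx, ky⟩ := key hxy
    have hk : ∀ {p : G ⧸ nz M}, g • p = p → (k * g * k⁻¹) • (k • p) = k • p := fun {p} hp => by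
      rw [mul_smul, inv_smul_smul, mul_smul, hp]
    have h1 : (k * g * k⁻¹) • a = a := by rw [← kx]; exact hk gx
    have h2' : (k * g * k⁻¹) • b = b := by rw [← ky]; exact hk gy
    have hw : k • w ≠ a := fun e => hxw (smul_left_cancel k (kx.trans e.symm))
    obtain ⟨n, hn', hnw⟩ := hpt hw
    have hc := hab_cz h1 h2'
    have h3 : (k * g * k⁻¹) • (n • b) = n • b := by rw [← hnw]; exact hk gw
    exact conj_eq_one_iff.1 (semireg _ hc n hn' (fun e => by
      rw [e, one_smul, ← ky] at hnw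
      exact hyw (smul_left_cancel k hnw).symm) (hfix3 hc hn' h3))
  obtain ⟨m₀, hm₀, hm₀ne⟩ := (Subgroup.bot_or_exists_ne_one M).resolve_left H.ne
  have hZ : H7.ZHyp G (G ⧸ nz M) := by
    refine ⟨⟨fun {g g'} hgg => ?_⟩, fun {x y p q} hxy hpq => ?_, hthree, ⟨z, H.z_ne, a, b, hba.symm, hna z H.zN, hzb⟩⟩
    · have hfix : ∀ p : G ⧸ nz M, (g'⁻¹ * g) • p = p := fun p => by rw [mul_smul, hgg p, inv_smul_smul]
      refine (inv_mul_eq_one.1 (hthree (g'⁻¹ * g) a b (m₀ • b) hba.symm (fun e => hm₀ne ?_) (fun e => ?_)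
        (hfix _) (hfix _) (hfix _))).symm
      · exact hMinj hm₀ (one_mem M) (by rw [one_smul]; exact e.symm)
      · exact H.orbit_ne_base hba ⟨m₀, hMN hm₀⟩ e.symm
    · obtain ⟨g, g1, g2⟩ := key hxy
      obtain ⟨k, k1, k2⟩ := key hpq
      exact ⟨k⁻¹ * g, by rw [mul_smul, g1, inv_smul_eq_iff, k1], by rw [mul_smul, g2, inv_smul_eq_iff, k2]⟩
  have K : H7.ZK G a b M := by
    refine ⟨hZ, hba.symm, fun n hn' => hna n (hMN hn'), fun g hg x hx => conj_mem (hfixa g hg) hx,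
      fun y y' hy hy' => ?_⟩
    obtain ⟨n, hn', rfl⟩ := hpt hy
    obtain ⟨n', hn'', rfl⟩ := hpt hy'
    refine ⟨⟨n' * n⁻¹, mul_mem hn'' (inv_mem hn')⟩, ?_, fun w hw => Subtype.ext ?_⟩
    · show (n' * n⁻¹) • (n • b) = n' • b
      rw [← mul_smul, inv_mul_cancel_right]
    · have : (w : G) * n = n' := hMinj (mul_mem w.2 hn') hn'' (by rw [mul_smul]; exact hw)
      show (w : G) = n' * n⁻¹
      rw [← this, mul_inv_cancel_right]
  have hstab : stabilizer G a ⊓ stabilizer G b = cz M z :=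
    le_antisymm (fun g hg => hab_cz hg.1 hg.2) fun g hg => hcN hg
  have hcardΩ : Fintype.card (G ⧸ nz M) = Nat.card M + 1 := by
    rw [← Nat.card_eq_fintype_card, ← Subgroup.index, H.index_nz, hk, mul_one]
  have heven : Even (Nat.card ↥(stabilizer G a ⊓ stabilizer G b)) := by
    rw [hstab, even_iff_two_dvd, ← H.ord]
    exact Subgroup.orderOf_dvd_natCard _ H.z_mem
  have hle : Nat.card (G ⧸ nz M) - 2 ≤ 2 * Nat.card ↥(stabilizer G a ⊓ stabilizer G b) := by
    rw [Nat.card_eq_fintype_card]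
    exact hZ.even_le hba.symm heven
  obtain ⟨p, f, hp, hexp, hcard⟩ := K.elementary hle fun x hx y hy => H.comm hx hy
  refine ⟨p, f, hp, hexp, hcard, ?_⟩
  rcases hZ.even_cases hba.symm heven with h | h
  · obtain ⟨F, iF, iFF, hF, e⟩ := pgl_of_full K (fun x hx y hy => H.comm hx hy)
      (fun h1 h1' h2' h2'' => H.cz_comm hba hzb (hstab ▸ h1') (hstab ▸ h2'')) h
      ⟨u, ua, ub, fun x hx => hinv x (hstab ▸ hx)⟩
    exact ⟨F, iF, iFF, hF, Or.inl e⟩
  · obtain ⟨F, iF, iFF, -, hF, e⟩ := hZ.psl_of_even_half hba.symm heven h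
    obtain ⟨r, hr⟩ := heven
    simp only [hadef] at hr h
    have hF4 : Fintype.card F = 4 * r + 1 := by omega
    exact ⟨F, iF, iFF, by omega, Or.inr ⟨by rw [hF4]; omega, e⟩⟩

end Cfsg.Agent.H77.TIInv.Hyp
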