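import Cfsg.Agent.H77.TIInv.Basic

/-!
Counting involutions in the cosets of the normaliser: every further coset is fixed by a conjugate of `z`.
-/

set_option autoImplicit false
set_option linter.style.haveILetI false
set_option linter.unusedSectionVars false

open scoped Pointwise

open MulAction

namespace Cfsg.Agent.H77.TIInv

variable {G : Type*} [Group G] [Finite G]

/-- The base point of the cosets of the normaliser. -/
abbrev base (M : Subgroup G) : G ⧸ nz M := ((1 : G) : G ⧸ nz M)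

/-- The involutions in a coset of the normaliser. -/
def fib (M : Subgroup G) (ω : G ⧸ nz M) : Set G := {u | u ∈ invs G ∧ (u : G ⧸ nz M) = ω}

theorem eq_base_iff {M : Subgroup G} {g : G} : (g : G ⧸ nz M) = base M ↔ g ∈ nz M := by
  rw [QuotientGroup.eq]
  simp

theorem mem_stab_iff {M : Subgroup G} {g : G} (n : nz M) :
    n ∈ stabilizer (nz M) (g : G ⧸ nz M) ↔ g⁻¹ * (n : G) * g ∈ nz M := by
  have h : n • (g : G ⧸ nz M) = ((((n : G) * g) : G) : G ⧸ nz M) := rfl
  rw [mem_stabilizer_iff, h, eq_comm, QuotientGroup.eq, mul_assoc]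

theorem conj_mem_fib {M : Subgroup G} {ω : G ⧸ nz M} {n u : G} (hn : n ∈ nz M) (hu : u ∈ fib M ω) :
    n * u * n⁻¹ ∈ fib M (n • ω) := by
  refine ⟨conj_mem_invs n hu.1, ?_⟩
  rw [← hu.2]
  refine QuotientGroup.eq.2 ?_
  show (n * u * n⁻¹)⁻¹ * (n * u) ∈ nz M
  rw [show (n * u * n⁻¹)⁻¹ * (n * u) = n by group]
  exact hn

namespace Hyp

variable {M : Subgroup G} {z : G} (H : Hyp M z)

include H

theorem card_fib_base : Nat.card (fib M (base M)) = Nat.card M := by
  refine (Nat.card_eq_of_bijective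
    (fun m : M => (⟨m.1 * z, H.mz_invs m.2, eq_base_iff.2 (mul_mem (Subgroup.le_normalizer m.2) H.zN)⟩ :
      fib M (base M))) ⟨fun a b h => ?_, fun u => ?_⟩).symm
  · exact Subtype.ext (mul_right_cancel (congrArg Subtype.val h))
  · refine ⟨⟨u.1 * z, H.invs_nz u.2.1 (eq_base_iff.1 u.2.2)⟩, Subtype.ext ?_⟩
    show u.1 * z * z = u.1
    rw [mul_assoc, H.zz, mul_one]

/-- An involution in a coset moves the others into the stabiliser. -/
theorem fib_diff {ω : G ⧸ nz M} {u v : G} (hu : u ∈ fib M ω) (hv : v ∈ fib M ω) :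
    ∃ d : stabilizer (nz M) ω, (d.1 : G) = u * v := by
  have h := QuotientGroup.eq.1 (hu.2.trans hv.2.symm)
  rw [inv_of_invs hu.1] at h
  refine ⟨⟨⟨u * v, h⟩, ?_⟩, rfl⟩
  rw [← hu.2, mem_stab_iff]
  show u⁻¹ * (u * v) * u ∈ nz M
  rw [show u⁻¹ * (u * v) * u = v * u by group, show v * u = (u * v)⁻¹ by
    rw [mul_inv_rev, inv_of_invs hu.1, inv_of_invs hv.1]]
  exact inv_mem h

/-- The involutions in a further coset inject into the image of the stabiliser in `C`. -/
theorem card_fib_le (π : nz M →* cz M z) (hπ : ∀ n : nz M, (n : G) * ((π n : cz M z) : G)⁻¹ ∈ M)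
    {ω : G ⧸ nz M} (hω : ω ≠ base M) :
    Nat.card (fib M ω) ≤ Nat.card ↥((stabilizer (nz M) ω).map π) := by
  classical
  by_cases he : Nonempty (fib M ω)
  · obtain ⟨u₀⟩ := he
    choose d hd using fun u : fib M ω => H.fib_diff u₀.2 u.2
    refine Nat.card_le_card_of_injective
      (fun u => (⟨π (d u).1, Subgroup.mem_map_of_mem π (d u).2⟩ : ↥((stabilizer (nz M) ω).map π))) ?_
    intro u v e
    have e' : π (d u).1 = π (d v).1 := congrArg Subtype.val e
    have h1 := hπ (d u).1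
    have h2 := hπ (d v).1
    rw [← e'] at h2
    have h3 := mul_mem h1 (inv_mem h2)
    rw [hd, hd, show u₀.1 * u.1 * (((π (d u).1 : cz M z) : G))⁻¹ *
        (u₀.1 * v.1 * (((π (d u).1 : cz M z) : G))⁻¹)⁻¹ = u₀.1 * (u.1 * v.1⁻¹) * u₀.1⁻¹ by group] at h3
    refine Subtype.ext ?_
    by_contra hne
    rw [inv_of_invs v.2.1] at h3
    have hvu : v.1⁻¹ * u.1 ∉ M := by
      intro hm
      refine hne ((H.coset_unique v.2.1 u.2.1 (fun hN => hω ?_) hm).symm)
      rw [← v.2.2]
      exact eq_base_iff.2 hN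
    -- the left coset condition in conjugated form
    have huN : u.1 ∉ nz M := fun hN => hω (by rw [← u.2.2]; exact eq_base_iff.2 hN)
    have hu0N : u₀.1 * u.1 ∈ nz M := by
      have h := QuotientGroup.eq.1 (u₀.2.2.trans u.2.2.symm)
      rwa [inv_of_invs u₀.2.1] at h
    have h4 := conj_mem (inv_mem hu0N) h3
    rw [show (u₀.1 * u.1)⁻¹ * (u₀.1 * (u.1 * v.1) * u₀.1⁻¹) * ((u₀.1 * u.1)⁻¹)⁻¹ = v.1 * u.1 by group] at h4
    exact hvu (by rwa [inv_of_invs v.2.1])
  · haveI : IsEmpty (fib M ω) := not_nonempty_iff.1 he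
    rw [Nat.card_of_isEmpty]
    exact Nat.zero_le _

theorem card_fib_le_cz {ω : G ⧸ nz M} (hω : ω ≠ base M) : Nat.card (fib M ω) ≤ Nat.card (cz M z) := by
  obtain ⟨π, hπ⟩ := H.exists_proj
  exact (H.card_fib_le π hπ hω).trans (Subgroup.card_le_card_group _)

theorem card_invs_eq :
    letI := Fintype.ofFinite (G ⧸ nz M)
    Nat.card (invs G) = ∑ ω : G ⧸ nz M, Nat.card (fib M ω) := by
  letI := Fintype.ofFinite (G ⧸ nz M)
  rw [← Nat.card_sigma]
  exact Nat.card_congr
    { toFun := fun u => ⟨(u.1 : G ⧸ nz M), ⟨u.1, u.2, rfl⟩⟩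
      invFun := fun p => ⟨p.2.1, p.2.2.1⟩
      left_inv := fun u => rfl
      right_inv := fun ⟨ω, u, hu, e⟩ => by subst e; rfl }

/-- A set of cosets with few involutions is small. -/
theorem deficit (O : Finset (G ⧸ nz M)) (ha : base M ∉ O) (c : ℕ) (hO : ∀ ω ∈ O, Nat.card (fib M ω) ≤ c) :
    Nat.card (cz M z) * O.card + Nat.card (cz M z) < Nat.card M + c * O.card := by
  classical
  letI := Fintype.ofFinite (G ⧸ nz M)
  have hb := H.big
  rw [H.index_eq, card_invs_eq H] at hb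
  set R := (Finset.univ \ O).erase (base M) with hR
  have hsum : ∑ ω : G ⧸ nz M, Nat.card (fib M ω) ≤ Nat.card M + c * O.card + Nat.card (cz M z) * R.card := by
    rw [← Finset.sum_sdiff (Finset.subset_univ O), ← Finset.add_sum_erase _ _
      (show base M ∈ Finset.univ \ O by simp [ha]), H.card_fib_base, add_right_comm]
    refine Nat.add_le_add (Nat.add_le_add le_rfl ?_) ?_
    · refine (Finset.sum_le_card_nsmul _ _ c hO).trans ?_
      rw [smul_eq_mul, mul_comm]
    · refine (Finset.sum_le_card_nsmul _ _ (Nat.card (cz M z)) fun ω hω => ?_).trans ?_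
      · exact H.card_fib_le_cz (Finset.ne_of_mem_erase hω)
      · rw [smul_eq_mul, mul_comm]
  have hcard : O.card + R.card + 1 = (nz M).index := by
    rw [hR, Finset.card_erase_of_mem (show base M ∈ Finset.univ \ O by simp [ha]),
      Finset.card_sdiff_of_subset (Finset.subset_univ O), Finset.card_univ, Subgroup.index, Nat.card_eq_fintype_card]
    have : O.card < Fintype.card (G ⧸ nz M) :=
      Finset.card_lt_univ_of_notMem ha
    omega
  rw [← hcard] at hb
  have := hb.trans_le hsum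
  have e : (O.card + R.card + 1) * Nat.card (cz M z)
      = Nat.card (cz M z) * O.card + Nat.card (cz M z) + Nat.card (cz M z) * R.card := by ring
  omega

theorem orbit_ne_base {ω : G ⧸ nz M} (hω : ω ≠ base M) (n : nz M) : n • ω ≠ base M := fun e => hω (by
  have h : n⁻¹ • base M = base M := by
    show ((((n⁻¹ : nz M) : G) * 1 : G) : G ⧸ nz M) = base M
    rw [mul_one, eq_base_iff]
    exact (n⁻¹).2
  rw [← h, ← e, inv_smul_smul])

/-- The kernel of the projection on a stabiliser is no larger than `C`. -/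
theorem card_stab_le {π : nz M →* cz M z} (hπ : ∀ n : nz M, (n : G) * ((π n : cz M z) : G)⁻¹ ∈ M)
    {g : G} (hg : g ∉ nz M) :
    Nat.card (π.comp (stabilizer (nz M) (g : G ⧸ nz M)).subtype).ker ≤ Nat.card (cz M z) := by
  set D := stabilizer (nz M) (g : G ⧸ nz M)
  have hker : ∀ n : nz M, π n = 1 → (n : G) ∈ M := fun n hn => by
    have := hπ n
    rwa [hn, OneMemClass.coe_one, inv_one, mul_one] at this
  let f : (π.comp D.subtype).ker →* nz M :=
    { toFun := fun x => ⟨g⁻¹ * x.1.1.1 * g, (mem_stab_iff x.1.1).1 x.1.2⟩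
      map_one' := Subtype.ext (by simp)
      map_mul' := fun a b => Subtype.ext (by simp [mul_assoc]) }
  refine Nat.card_le_card_of_injective (fun x => π (f x)) ((injective_iff_map_eq_one (π.comp f)).2 fun x hx => ?_)
  have h1 : g⁻¹ * x.1.1.1 * g ∈ M := hker _ hx
  have h2 : x.1.1.1 ∈ M := hker _ x.2
  by_contra hne
  refine hg (inv_mem_iff.1 (H.mem_nz h2 (fun e => hne (Subtype.ext (Subtype.ext (Subtype.ext e)))) ?_))
  rwa [inv_inv]

theorem ker_image {π : nz M →* cz M z} (D : Subgroup (nz M)) :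
    Nat.card D = Nat.card (π.comp D.subtype).ker * Nat.card ↥(D.map π) := by
  rw [← (π.comp D.subtype).ker.card_mul_index, Subgroup.index_ker, MonoidHom.range_comp, Subgroup.range_subtype]

/-- Every further coset is fixed by an involution of the normaliser. -/
theorem exists_fix {ω : G ⧸ nz M} (hω : ω ≠ base M) :
    ∃ t : nz M, (t : G) ∈ invs G ∧ t • ω = ω := by
  classical
  by_contra hno
  push Not at hno
  obtain ⟨π, hπ⟩ := H.exists_proj
  obtain ⟨c, hc⟩ : 2 ∣ Nat.card (cz M z) := by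
    rw [← H.ord]; exact Subgroup.orderOf_dvd_natCard _ H.z_mem
  haveI := Fintype.ofFinite (orbit (nz M) ω)
  -- stabilisers along the orbit have odd order
  have hodd : ∀ n : nz M, ¬ 2 ∣ Nat.card (stabilizer (nz M) (n • ω)) := by
    intro n h2
    haveI : Fact (Nat.Prime 2) := ⟨Nat.prime_two⟩
    obtain ⟨t, ht⟩ := exists_prime_orderOf_dvd_card' (G := stabilizer (nz M) (n • ω)) 2 h2
    have ht' : (t.1 : G) ∈ invs G := by
      show orderOf (t.1 : G) = 2
      rw [Subgroup.orderOf_coe, Subgroup.orderOf_coe]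
      exact ht
    refine hno (n⁻¹ * t.1 * n) ?_ ?_
    · have := conj_mem_invs (n : G)⁻¹ ht'
      rw [inv_inv] at this
      simpa using this
    · rw [mul_smul, mul_smul, show t.1 • n • ω = n • ω from t.2, inv_smul_smul]
  have himg : ∀ n : nz M, Nat.card ↥((stabilizer (nz M) (n • ω)).map π) ≤ c := by
    intro n
    have h1 := Subgroup.card_subgroup_dvd_card ((stabilizer (nz M) (n • ω)).map π)
    rw [hc] at h1
    have h2 : Nat.card ↥((stabilizer (nz M) (n • ω)).map π) ∣ Nat.card (stabilizer (nz M) (n • ω)) :=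
      Subgroup.card_map_dvd _ _
    have hcop : (Nat.card ↥((stabilizer (nz M) (n • ω)).map π)).Coprime 2 :=
      Nat.coprime_comm.1 (Nat.prime_two.coprime_iff_not_dvd.2 fun h => hodd n (h.trans h2))
    refine Nat.le_of_dvd ?_ (hcop.dvd_of_dvd_mul_left h1)
    have : 0 < Nat.card (cz M z) := Nat.card_pos
    omega
  set O : Finset (G ⧸ nz M) := (orbit (nz M) ω).toFinset with hOdef
  have hdef := H.deficit O (by
      rw [hOdef, Set.mem_toFinset]
      rintro ⟨n, hn⟩
      exact H.orbit_ne_base hω n hn) c (fun ω' hω' => by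
      rw [hOdef, Set.mem_toFinset] at hω'
      obtain ⟨n, rfl⟩ := hω'
      exact (H.card_fib_le π hπ (H.orbit_ne_base hω n)).trans (himg n))
  have hOc : O.card = Nat.card (orbit (nz M) ω) := by
    rw [hOdef, Set.toFinset_card, Nat.card_eq_fintype_card]
  obtain ⟨g, rfl⟩ := QuotientGroup.mk_surjective ω
  have hD : Nat.card (stabilizer (nz M) (g : G ⧸ nz M)) ≤ Nat.card (cz M z) * c := by
    rw [H.ker_image (π := π)]
    refine Nat.mul_le_mul (H.card_stab_le hπ fun hg => hω (eq_base_iff.2 hg)) ?_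
    have := himg 1
    rwa [one_smul] at this
  have horb : Nat.card (orbit (nz M) (g : G ⧸ nz M)) * Nat.card (stabilizer (nz M) (g : G ⧸ nz M))
      = Nat.card M * Nat.card (cz M z) := by
    rw [← H.card_nz, ← Nat.card_prod]
    exact Nat.card_congr (orbitProdStabilizerEquivGroup (nz M) (g : G ⧸ nz M))
  rw [← hOc] at horb
  have hpos : 0 < Nat.card (cz M z) := Nat.card_pos
  have h3 : Nat.card M * Nat.card (cz M z) ≤ O.card * c * Nat.card (cz M z) := by
    rw [← horb, mul_assoc, mul_comm c]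
    exact Nat.mul_le_mul_left _ hD
  have h4 := Nat.le_of_mul_le_mul_right h3 hpos
  rw [hc] at hdef
  have e : 2 * c * O.card = c * O.card + O.card * c := by ring
  omega

/-- The local picture at a coset fixed by `z`. -/
theorem fixed_data {ω : G ⧸ nz M} (hω : ω ≠ base M) (hz : z • ω = ω) :
    ∃ u ∈ fib M ω, (u ∉ nz M) ∧ u * z = z * u ∧ (∀ c ∈ cz M z, u * c * u⁻¹ = c⁻¹) ∧
      (∀ v ∈ fib M ω, v * z = z * v) ∧ Nat.card (fib M ω) = Nat.card (cz M z) ∧
      ∀ n ∈ nz M, n • ω = ω ↔ n ∈ cz M z := by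
  classical
  obtain ⟨π, hπ⟩ := H.exists_proj
  obtain ⟨g, rfl⟩ := QuotientGroup.mk_surjective ω
  have hgN : g ∉ nz M := fun hg => hω (eq_base_iff.2 hg)
  set D := stabilizer (nz M) (g : G ⧸ nz M) with hDdef
  have hzD : (⟨z, H.zN⟩ : nz M) ∈ D := hz
  have hker : ∀ n : nz M, π n = 1 → (n : G) ∈ M := fun n hn => by
    have := hπ n
    rwa [hn, OneMemClass.coe_one, inv_one, mul_one] at this
  have hzg : g⁻¹ * z * g ∈ nz M := (mem_stab_iff _).1 hzD
  have hzg2 : g⁻¹ * z * g ∈ invs G := by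
    have := conj_mem_invs g⁻¹ H.z_inv
    rwa [inv_inv] at this
  -- no element of `M` fixes the coset
  have hbot : ∀ d ∈ D, π d = 1 → d = 1 := by
    intro d hd h1
    have hdM := hker d h1
    have hd' : g⁻¹ * (d : G) * g ∈ nz M := (mem_stab_iff _).1 hd
    have hinv : (g⁻¹ * z * g) * (g⁻¹ * (d : G) * g) * (g⁻¹ * z * g)⁻¹ = (g⁻¹ * (d : G) * g)⁻¹ := by
      rw [show (g⁻¹ * z * g) * (g⁻¹ * (d : G) * g) * (g⁻¹ * z * g)⁻¹ = g⁻¹ * (z * d * z⁻¹) * g by group,
        H.z_invert hdM]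
      group
    obtain ⟨m, hm, e⟩ : ∃ m ∈ M, g⁻¹ * z * g = m * z :=
      ⟨g⁻¹ * z * g * z, H.invs_nz hzg2 hzg, by rw [mul_assoc _ z z, H.zz, mul_one]⟩
    -- the projection of the conjugate squares to one
    set x : nz M := ⟨g⁻¹ * (d : G) * g, hd'⟩ with hx
    have hx1 : π x = 1 := by
      set t : nz M := ⟨g⁻¹ * z * g, hzg⟩ with ht
      have h2 : t * x * t⁻¹ = x⁻¹ := Subtype.ext hinv
      have h3 := congrArg π h2
      rw [map_mul, map_mul, map_inv, map_inv] at h3
      have htz : ((π t : cz M z) : G) = z := by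
        refine (H.unique (m := (t : G) * ((π t : cz M z) : G)⁻¹) (m' := m) (hπ t) hm (π t).2 H.z_mem ?_).2
        rw [inv_mul_cancel_right]
        exact e
      have h4 : π t * π x * (π t)⁻¹ = π x := by
        refine Subtype.ext ?_
        push_cast
        rw [htz, ← commute_z (π x).2, mul_inv_cancel_right]
      rw [h4] at h3
      have hsq : π x ^ 2 = 1 := by rw [pow_two]; nth_rewrite 1 [h3]; rw [inv_mul_cancel]
      have hpow : (d : G) ^ Nat.card M = 1 :=
        congrArg Subtype.val (pow_card_eq_one' (x := (⟨(d : G), hdM⟩ : M)))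
      have hxM : x ^ Nat.card M = 1 := Subtype.ext (by
        rw [SubmonoidClass.coe_pow]
        show (g⁻¹ * (d : G) * g) ^ Nat.card M = 1
        rw [show g⁻¹ * (d : G) * g = g⁻¹ * (d : G) * g⁻¹⁻¹ by group, conj_pow, hpow]
        group)
      rw [← orderOf_eq_one_iff]
      refine Nat.eq_one_of_dvd_coprimes (Nat.prime_two.coprime_iff_not_dvd.2 H.two_not_dvd)
        (orderOf_dvd_of_pow_eq_one hsq) (orderOf_dvd_of_pow_eq_one ?_)
      rw [← map_pow, hxM, map_one]
    by_contra hne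
    have hxM := hker x hx1
    refine hgN (inv_mem_iff.1 (H.mem_nz hdM (fun e' => hne (Subtype.ext e')) ?_))
    rwa [inv_inv]
  have hinj : Function.Injective (π.comp D.subtype) :=
    (injective_iff_map_eq_one _).2 fun d hd => Subtype.ext (hbot d.1 d.2 hd)
  have hDle : Nat.card D ≤ Nat.card (cz M z) := Nat.card_le_card_of_injective _ hinj
  have horb : Nat.card (orbit (nz M) (g : G ⧸ nz M)) * Nat.card D = Nat.card M * Nat.card (cz M z) := by
    rw [← H.card_nz, ← Nat.card_prod]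
    exact Nat.card_congr (orbitProdStabilizerEquivGroup (nz M) (g : G ⧸ nz M))
  haveI := Fintype.ofFinite (orbit (nz M) (g : G ⧸ nz M))
  set O : Finset (G ⧸ nz M) := (orbit (nz M) (g : G ⧸ nz M)).toFinset with hOdef
  have hOc : O.card = Nat.card (orbit (nz M) (g : G ⧸ nz M)) := by
    rw [hOdef, Set.toFinset_card, Nat.card_eq_fintype_card]
  rw [← hOc] at horb
  -- the fibres along the orbit have equal size
  have hfibeq : ∀ n : nz M, Nat.card (fib M (n • (g : G ⧸ nz M))) ≤ Nat.card (fib M (g : G ⧸ nz M)) := by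
    intro n
    refine Nat.card_le_card_of_injective (fun v => (⟨(n : G)⁻¹ * v.1 * ((n : G)⁻¹)⁻¹, ?_⟩ :
      fib M (g : G ⧸ nz M))) (fun v w e => Subtype.ext (mul_left_cancel (mul_right_cancel (congrArg Subtype.val e))))
    have := conj_mem_fib (inv_mem n.2) v.2
    rwa [show (n : G)⁻¹ • (n • (g : G ⧸ nz M)) = (g : G ⧸ nz M) from inv_smul_smul (n : G) (g : G ⧸ nz M)] at this
  have hfull : Nat.card (fib M (g : G ⧸ nz M)) = Nat.card (cz M z) := by
    refine le_antisymm (H.card_fib_le_cz hω) ?_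
    by_contra hlt
    have hdef := H.deficit O (by
        rw [hOdef, Set.mem_toFinset]
        rintro ⟨n, hn⟩
        exact H.orbit_ne_base hω n hn) (Nat.card (fib M (g : G ⧸ nz M))) (fun ω' hω' => by
        rw [hOdef, Set.mem_toFinset] at hω'
        obtain ⟨n, rfl⟩ := hω'
        exact hfibeq n)
    have h5 : Nat.card M * Nat.card (cz M z) ≤ O.card * Nat.card (cz M z) := by
      rw [← horb]; exact Nat.mul_le_mul_left _ hDle
    have h6 := Nat.le_of_mul_le_mul_right h5 Nat.card_pos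
    have h7 : (Nat.card (fib M (g : G ⧸ nz M)) + 1) * O.card ≤ Nat.card (cz M z) * O.card :=
      Nat.mul_le_mul_right _ (by omega)
    rw [Nat.succ_mul] at h7
    omega
  obtain ⟨u₀⟩ : Nonempty (fib M (g : G ⧸ nz M)) :=
    (Nat.card_pos_iff.1 (hfull.symm ▸ Nat.card_pos)).1
  choose d hd using fun v : fib M (g : G ⧸ nz M) => H.fib_diff u₀.2 v.2
  have hdinj : Function.Injective d := fun v w e =>
    Subtype.ext (mul_left_cancel ((hd v).symm.trans ((congrArg (fun x : D => (x.1 : G)) e).trans (hd w))))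
  have hdbij : Function.Bijective d := hdinj.bijective_of_nat_card_le (hfull.symm ▸ hDle)
  have hDinv : ∀ x : D, u₀.1 * (x.1 : G) * u₀.1⁻¹ = (x.1 : G)⁻¹ := by
    intro x
    obtain ⟨v, rfl⟩ := hdbij.2 x
    rw [hd, mul_inv_rev, inv_of_invs u₀.2.1, inv_of_invs v.2.1, ← mul_assoc u₀.1 u₀.1 v.1,
      mul_self_of_invs u₀.2.1, one_mul]
  have hu₀z : u₀.1 * z = z * u₀.1 := by
    have h := hDinv ⟨⟨z, H.zN⟩, hzD⟩
    rw [inv_of_invs H.z_inv] at h
    exact mul_inv_eq_iff_eq_mul.1 h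
  have hDcomm : ∀ x y : D, (x.1 : G) * y.1 = (y.1 : G) * x.1 := by
    intro x y
    have h := hDinv (x * y)
    rw [show ((x * y : D).1 : G) = (x.1 : G) * y.1 from rfl,
      show u₀.1 * ((x.1 : G) * y.1) * u₀.1⁻¹ = (u₀.1 * (x.1 : G) * u₀.1⁻¹) * (u₀.1 * (y.1 : G) * u₀.1⁻¹) by group,
      hDinv, hDinv, ← mul_inv_rev] at h
    exact (inv_injective h).symm
  have hDC : ∀ x : D, (x.1 : G) ∈ cz M z := fun x =>
    ⟨x.1.2, Subgroup.mem_centralizer_singleton_iff.2 (hDcomm x ⟨⟨z, H.zN⟩, hzD⟩)⟩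
  have hCD : ∀ c ∈ cz M z, ∃ x : D, (x.1 : G) = c := by
    intro c hc
    have hb : Function.Bijective (fun x : D => (⟨(x.1 : G), hDC x⟩ : cz M z)) := by
      refine Function.Injective.bijective_of_nat_card_le
        (fun x y e => Subtype.ext (Subtype.ext (congrArg (fun w : cz M z => (w : G)) e))) ?_
      rw [← hfull]
      exact Nat.card_le_card_of_injective _ hdinj
    obtain ⟨x, hx⟩ := hb.2 ⟨c, hc⟩
    exact ⟨x, congrArg Subtype.val hx⟩
  refine ⟨u₀.1, u₀.2, fun hN => hω ?_, hu₀z, fun c hc => ?_, fun v hv => ?_, hfull, fun n hn => ⟨fun h => ?_, fun h => ?_⟩⟩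
  · rw [← u₀.2.2]; exact eq_base_iff.2 hN
  · obtain ⟨x, rfl⟩ := hCD c hc
    exact hDinv x
  · have h : (u₀.1 * v) * z = z * (u₀.1 * v) := by
      have := commute_z (hDC (d ⟨v, hv⟩))
      rwa [hd] at this
    rw [← mul_assoc z, ← hu₀z, mul_assoc, mul_assoc u₀.1] at h
    exact mul_left_cancel h
  · exact hDC ⟨⟨n, hn⟩, h⟩
  · obtain ⟨x, rfl⟩ := hCD n h
    exact x.2

theorem cz_comm {ω : G ⧸ nz M} (hω : ω ≠ base M) (hz : z • ω = ω) {c d : G} (hc : c ∈ cz M z)
    (hd : d ∈ cz M z) : c * d = d * c := by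
  obtain ⟨u, -, -, -, hinv, -⟩ := H.fixed_data hω hz
  have h := hinv _ (mul_mem hc hd)
  rw [show u * (c * d) * u⁻¹ = (u * c * u⁻¹) * (u * d * u⁻¹) by group, hinv c hc, hinv d hd, ← mul_inv_rev] at h
  exact (inv_injective h).symm

/-- Every further coset is a translate of one fixed by `z`, uniquely so. -/
theorem cover {ω : G ⧸ nz M} (hω : ω ≠ base M) :
    ∃ n ∈ M, ∃ ω' : G ⧸ nz M, ω' ≠ base M ∧ z • ω' = ω' ∧ ω = n • ω' := by
  obtain ⟨t, ht, htω⟩ := H.exists_fix hω
  have hm := H.invs_nz ht t.2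
  obtain ⟨n, hn, hnn⟩ : ∃ n ∈ M, n * n = (t : G) * z := by
    obtain ⟨k, hk⟩ : Odd (Nat.card M) := Nat.not_even_iff_odd.1 fun h => H.two_not_dvd (even_iff_two_dvd.1 h)
    refine ⟨((t : G) * z) ^ (k + 1), pow_mem hm _, ?_⟩
    have h1 : ((t : G) * z) ^ Nat.card M = 1 :=
      congrArg Subtype.val (pow_card_eq_one' (x := (⟨(t : G) * z, hm⟩ : M)))
    rw [← pow_add, show k + 1 + (k + 1) = Nat.card M + 1 by omega, pow_succ, h1, one_mul]
  have hnN : n ∈ nz M := Subgroup.le_normalizer hn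
  refine ⟨n, hn, n⁻¹ • ω, fun e => hω ?_, ?_, (smul_inv_smul n ω).symm⟩
  · have h : n • base M = base M := by
      show (((n * 1 : G)) : G ⧸ nz M) = base M
      rw [mul_one, eq_base_iff]
      exact hnN
    rw [← smul_inv_smul n ω, e, h]
  · have e : z = n⁻¹ * (t : G) * n := by
      have h1 : (t : G) = n * n * z := by rw [hnn, mul_assoc, H.zz, mul_one]
      rw [h1, show n⁻¹ * (n * n * z) * n = n * (z * n * z⁻¹) * z by group, H.z_invert hn, mul_inv_cancel,
        one_mul]
    conv_lhs => rw [e]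
    rw [mul_smul, mul_smul, smul_inv_smul, show (t : G) • ω = ω from htω]

theorem translate_inj {n n' : G} {ω ω' : G ⧸ nz M} (hn : n ∈ M) (hn' : n' ∈ M)
    (hω : ω ≠ base M) (hz : z • ω = ω) (hz' : z • ω' = ω') (h : n • ω = n' • ω') : n = n' ∧ ω = ω' := by
  have hk : n'⁻¹ * n ∈ M := mul_mem (inv_mem hn') hn
  have hω' : ω' = (n'⁻¹ * n) • ω := by rw [mul_smul, h, inv_smul_smul]
  obtain ⟨-, -, -, -, -, -, -, hst⟩ := H.fixed_data hω hz
  have e : (n'⁻¹ * n)⁻¹ * z * (n'⁻¹ * n) ∈ cz M z := by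
    refine (hst _ (mul_mem (mul_mem (inv_mem (Subgroup.le_normalizer hk)) H.zN) (Subgroup.le_normalizer hk))).1 ?_
    rw [mul_smul, mul_smul, ← hω', hz', hω', inv_smul_smul]
  have e2 : (n'⁻¹ * n)⁻¹ * z * (n'⁻¹ * n) = ((n'⁻¹ * n)⁻¹ * (n'⁻¹ * n)⁻¹) * z := by
    conv_lhs => rw [mul_assoc, show z * (n'⁻¹ * n) = (z * (n'⁻¹ * n) * z⁻¹) * z by group, H.z_invert hk]
    group
  rw [e2] at e
  have h1 := H.eq_one_of_mem (mul_mem (inv_mem hk) (inv_mem hk))
    (by simpa [mul_assoc, H.zz] using mul_mem e H.z_mem)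
  have h2 := H.eq_one_of_sq (inv_mem hk) h1
  rw [inv_eq_one] at h2
  exact ⟨(inv_mul_eq_one.1 h2).symm, by rw [hω', h2, one_smul]⟩

/-- The cosets, other than the base, fixed by `z`. -/
abbrev Fix (_ : Hyp M z) : Set (G ⧸ nz M) := {ω | ω ≠ base M ∧ z • ω = ω}

theorem index_nz : (nz M).index = Nat.card M * Nat.card H.Fix + 1 := by
  classical
  let f : Option (M × H.Fix) → G ⧸ nz M := fun o => o.elim (base M) fun p => (p.1 : G) • p.2.1
  have hne : ∀ p : M × H.Fix, (p.1 : G) • p.2.1 ≠ base M := fun p =>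
    H.orbit_ne_base p.2.2.1 ⟨p.1.1, Subgroup.le_normalizer p.1.2⟩
  have hb : Function.Bijective f := by
    constructor
    · rintro (_ | p) (_ | q) h
      · rfl
      · exact absurd h.symm (hne q)
      · exact absurd h (hne p)
      · obtain ⟨h1, h2⟩ := H.translate_inj p.1.2 q.1.2 p.2.2.1 p.2.2.2 q.2.2.2 h
        exact congrArg some (Prod.ext (Subtype.ext h1) (Subtype.ext h2))
    · intro ω
      by_cases hω : ω = base M
      · exact ⟨none, hω.symm⟩
      · obtain ⟨n, hn, ω', h1, h2, h3⟩ := H.cover hω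
        exact ⟨some (⟨n, hn⟩, ⟨ω', h1, h2⟩), h3.symm⟩
  rw [Subgroup.index, ← Nat.card_eq_of_bijective f hb, Finite.card_option, Nat.card_prod]

theorem card_centralizer :
    Nat.card ↥(Subgroup.centralizer ({z} : Set G)) = Nat.card (cz M z) * (Nat.card H.Fix + 1) := by
  classical
  let CG := Subgroup.centralizer ({z} : Set G)
  have hmem : ∀ g : CG, z • ((g : G) : G ⧸ nz M) = ((g : G) : G ⧸ nz M) := by
    intro g
    refine QuotientGroup.eq.2 ?_
    show (z * (g : G))⁻¹ * (g : G) ∈ nz M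
    rw [mul_inv_rev, show ((g : G))⁻¹ * z⁻¹ * (g : G) = (g : G)⁻¹ * (z * g) by rw [inv_of_invs H.z_inv]; group,
      ← Subgroup.mem_centralizer_singleton_iff.1 g.2, inv_mul_cancel_left]
    exact H.zN
  have hst : stabilizer CG (base M) = (cz M z).subgroupOf CG := by
    ext g
    rw [mem_stabilizer_iff, Subgroup.mem_subgroupOf]
    show ((((g : G) * 1) : G) : G ⧸ nz M) = base M ↔ (g : G) ∈ cz M z
    rw [mul_one, eq_base_iff]
    exact ⟨fun h => ⟨h, g.2⟩, fun h => h.1⟩
  have hEq : orbit CG (base M) = insert (base M) H.Fix := by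
    ext ω
    constructor
    · rintro ⟨g, rfl⟩
      show g • base M = base M ∨ g • base M ∈ H.Fix
      rw [or_iff_not_imp_left]
      refine fun h => ⟨h, ?_⟩
      show z • (((g : G) * 1 : G) : G ⧸ nz M) = (((g : G) * 1 : G) : G ⧸ nz M)
      rw [mul_one]
      exact hmem g
    · rintro (rfl | ⟨h1, h2⟩)
      · exact mem_orbit_self _
      · obtain ⟨u, hu, -, huz, -⟩ := H.fixed_data h1 h2
        refine ⟨⟨u, Subgroup.mem_centralizer_singleton_iff.2 huz⟩, ?_⟩
        show ((u * 1 : G) : G ⧸ nz M) = ω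
        rw [mul_one, hu.2]
  have h := Nat.card_congr (orbitProdStabilizerEquivGroup CG (base M))
  rw [Nat.card_prod, hEq, hst, Nat.card_congr (Subgroup.subgroupOfEquivOfLe
    (show cz M z ≤ CG from inf_le_right)).toEquiv, Nat.card_coe_set_eq,
    Set.ncard_insert_of_notMem (fun h : base M ∈ H.Fix => h.1 rfl), ← Nat.card_coe_set_eq, mul_comm] at h
  exact h.symm

theorem card_invs_le :
    Nat.card (invs G) ≤ Nat.card M + Nat.card (cz M z) * (Nat.card M * Nat.card H.Fix) := by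
  classical
  letI := Fintype.ofFinite (G ⧸ nz M)
  rw [H.card_invs_eq, ← Finset.add_sum_erase _ _ (Finset.mem_univ (base M)), H.card_fib_base]
  refine Nat.add_le_add le_rfl ((Finset.sum_le_card_nsmul _ _ (Nat.card (cz M z)) fun ω hω =>
    H.card_fib_le_cz (Finset.ne_of_mem_erase hω)).trans ?_)
  rw [Finset.card_erase_of_mem (Finset.mem_univ _), Finset.card_univ, ← Nat.card_eq_fintype_card,
    show Nat.card (G ⧸ nz M) = (nz M).index from rfl, H.index_nz, Nat.add_sub_cancel, smul_eq_mul, mul_comm]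

/-- The conjugates of `z`. -/
def cls (_ : Hyp M z) : Set G := {x | ∃ g : G, g * z * g⁻¹ = x}

theorem cls_subset : H.cls ⊆ invs G := by
  rintro _ ⟨g, rfl⟩
  exact conj_mem_invs g H.z_inv

theorem card_cls : Nat.card H.cls * Nat.card ↥(Subgroup.centralizer ({z} : Set G)) = Nat.card G := by
  classical
  have h := Nat.card_congr (orbitProdStabilizerEquivGroup (ConjAct G) z)
  have e1 : orbit (ConjAct G) z = H.cls := by
    ext x
    constructor
    · rintro ⟨g, rfl⟩; exact ⟨ConjAct.ofConjAct g, rfl⟩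
    · rintro ⟨g, rfl⟩; exact ⟨ConjAct.toConjAct g, rfl⟩
  have e2 : Nat.card (stabilizer (ConjAct G) z) = Nat.card ↥(Subgroup.centralizer ({z} : Set G)) := by
    refine Nat.card_congr
      { toFun := fun g => ⟨ConjAct.ofConjAct g.1, Subgroup.mem_centralizer_singleton_iff.2
          (mul_inv_eq_iff_eq_mul.1 g.2)⟩
        invFun := fun g => ⟨ConjAct.toConjAct g.1,
          mul_inv_eq_iff_eq_mul.2 (Subgroup.mem_centralizer_singleton_iff.1 g.2)⟩
        left_inv := fun g => rfl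
        right_inv := fun g => rfl }
  rw [Nat.card_prod, e1, e2] at h
  exact h

theorem card_group : Nat.card G = Nat.card M * Nat.card (cz M z) * (Nat.card M * Nat.card H.Fix + 1) := by
  rw [← H.card_nz, ← H.index_nz, (nz M).card_mul_index]

theorem fix_pos (hn : ¬ M.Normal) : 0 < Nat.card H.Fix := by
  rcases Nat.eq_zero_or_pos (Nat.card H.Fix) with h | h
  · exact absurd (Subgroup.normalizer_eq_top_iff.1 (Subgroup.index_eq_one.1 (by rw [H.index_nz, h]; simp))) hn
  · exact h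

end Hyp

end Cfsg.Agent.H77.TIInv
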