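import Mathlib

/-!
An abelian subgroup of order `q + 1` of `SL₂(q)`, `q` even, is cyclic.
-/

set_option autoImplicit false
set_option linter.style.haveILetI false

namespace Cfsg.Agent.H77.TIInv

open Matrix Polynomial

theorem sl2_cyclic_of_card_succ {F : Type*} [Field F] [Fintype F] (hev : Even (Fintype.card F))
    (M : Subgroup (SpecialLinearGroup (Fin 2) F)) (hcomm : ∀ x ∈ M, ∀ y ∈ M, x * y = y * x)
    (hcard : Nat.card M = Fintype.card F + 1) : IsCyclic M := by
  classical
  have hq : 1 < Fintype.card F := Fintype.one_lt_card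
  have hchar : ringChar F = 2 := FiniteField.even_card_iff_char_two.mpr (Nat.even_iff.mp hev)
  haveI : CharP F 2 := hchar ▸ ringChar.charP F
  obtain ⟨x, hxM, hx1⟩ := (Subgroup.bot_or_exists_ne_one M).resolve_left
    ((Subgroup.one_lt_card_iff_ne_bot M).1 (by omega))
  have hpow : x ^ (Fintype.card F + 1) = 1 := by
    have := congrArg Subtype.val (pow_card_eq_one' (x := (⟨x, hxM⟩ : M)))
    rwa [hcard] at this
  have hdet : x.1 0 0 * x.1 1 1 - x.1 0 1 * x.1 1 0 = 1 := by
    have := x.2
    rwa [det_fin_two] at this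
  have hmulc : ∀ a b : SpecialLinearGroup (Fin 2) F, (a * b).1 = a.1 * b.1 := fun _ _ => rfl
  have honec : (1 : SpecialLinearGroup (Fin 2) F).1 = 1 := rfl
  set t := x.1 0 0 + x.1 1 1 with ht
  -- no eigenvalue in the field
  have hroot : ∀ l : F, l ^ 2 ≠ t * l - 1 := by
    intro l hl
    obtain ⟨w, hw0, hw⟩ := (Matrix.exists_mulVec_eq_zero_iff (M := x.1 - l • (1 : Matrix (Fin 2) (Fin 2) F))).2 (by
      rw [det_fin_two]
      simp
      linear_combination hl + hdet)
    rw [sub_mulVec, smul_mulVec, one_mulVec, sub_eq_zero] at hw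
    have hn : ∀ n : ℕ, (x ^ n).1 *ᵥ w = l ^ n • w := by
      intro n
      induction n with
      | zero => rw [pow_zero, honec, one_mulVec, pow_zero, one_smul]
      | succ n ih =>
        rw [pow_succ, hmulc, ← mulVec_mulVec, hw, mulVec_smul, ih, smul_smul, pow_succ,
          mul_comm]
    have h1 : l ^ (Fintype.card F + 1) = 1 := by
      have h := hn (Fintype.card F + 1)
      rw [hpow, honec, one_mulVec] at h
      obtain ⟨i, hi⟩ := Function.ne_iff.1 hw0
      have h' := congrFun h i
      rw [Pi.smul_apply, smul_eq_mul] at h'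
      exact (mul_eq_right₀ hi).1 h'.symm
    rw [pow_succ, FiniteField.pow_card] at h1
    have hl1 : l = 1 := by
      have h2 : (l - 1) * (l - 1) = 0 := by
        have e2 : (2 : F) = 0 := CharTwo.two_eq_zero
        linear_combination h1 + (1 - l) * e2
      exact sub_eq_zero.1 (mul_self_eq_zero.1 h2)
    have ht0 : t = 0 := by
      rw [hl1] at hl
      have e2 : (2 : F) = 0 := CharTwo.two_eq_zero
      linear_combination -hl + e2
    have h2 : x * x = 1 := by
      apply Subtype.ext
      rw [hmulc, honec]
      have e11 : x.1 1 1 = -x.1 0 0 := by rw [ht] at ht0; linear_combination ht0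
      have e2 : (2 : F) = 0 := CharTwo.two_eq_zero
      rw [e11] at hdet
      ext i j
      fin_cases i <;> fin_cases j <;> simp [Matrix.mul_apply, Fin.sum_univ_two, e11] <;>
        first
          | linear_combination (-1 : F) * hdet - e2
          | ring
    obtain ⟨k, hk⟩ := hev
    exact hx1 (by
      rw [← hpow, pow_succ, show Fintype.card F = 2 * k by omega, pow_mul, pow_two, h2, one_pow, one_mul])
  have h10 : x.1 1 0 ≠ 0 := fun h => hroot (x.1 0 0) (by
    rw [h, mul_zero, sub_zero] at hdet
    rw [ht]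
    linear_combination -hdet)
  obtain ⟨l, hl⟩ : ∃ l : AlgebraicClosure F, l ^ 2 = algebraMap F _ t * l - 1 := by
    obtain ⟨l, hl⟩ := IsAlgClosed.exists_root (C (1 : AlgebraicClosure F) * X ^ 2 +
      C (-(algebraMap F _ t)) * X + C 1) (by
        rw [degree_quadratic (by norm_num)]; norm_num)
    refine ⟨l, ?_⟩
    simp [IsRoot] at hl
    linear_combination hl
  have hcm : ∀ m ∈ M, m.1 0 1 * x.1 1 0 = x.1 0 1 * m.1 1 0 ∧
      m.1 1 0 * x.1 0 0 + m.1 1 1 * x.1 1 0 = x.1 1 0 * m.1 0 0 + x.1 1 1 * m.1 1 0 := by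
    intro m hm
    have h := congrArg Subtype.val (hcomm m hm x hxM)
    rw [hmulc, hmulc] at h
    have h00 := congrFun (congrFun h 0) 0
    have h10' := congrFun (congrFun h 1) 0
    simp [Matrix.mul_apply, Fin.sum_univ_two] at h00 h10'
    exact ⟨by linear_combination h00, h10'⟩
  let c : SpecialLinearGroup (Fin 2) F → F := fun m => m.1 1 0 / x.1 1 0
  let d : SpecialLinearGroup (Fin 2) F → F := fun m => m.1 0 0 - c m * x.1 0 0
  let φ : M →* AlgebraicClosure F :=
    { toFun := fun m => algebraMap F _ (d m.1) + algebraMap F _ (c m.1) * l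
      map_one' := by simp [c, d]
      map_mul' := fun m n => by
        obtain ⟨e1, e2⟩ := hcm m.1 m.2
        have hmul : ((m * n : M) : SpecialLinearGroup (Fin 2) F).1 = m.1.1 * n.1.1 := rfl
        have hd' : d (m * n : M).1 = d m.1 * d n.1 - c m.1 * c n.1 := by
          simp only [d, c, hmul, Matrix.mul_apply, Fin.sum_univ_two]
          field_simp
          linear_combination (x.1 1 0 * n.1.1 1 0) * e1 - (x.1 0 0 * n.1.1 1 0) * e2 -
            (m.1.1 1 0 * n.1.1 1 0) * hdet
        have hc' : c (m * n : M).1 = d m.1 * c n.1 + c m.1 * d n.1 + c m.1 * c n.1 * t := by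
          simp only [d, c, hmul, Matrix.mul_apply, Fin.sum_univ_two, ht]
          field_simp
          linear_combination (n.1.1 1 0) * e2
        show algebraMap F _ (d (m * n : M).1) + algebraMap F _ (c (m * n : M).1) * l
          = (algebraMap F _ (d m.1) + algebraMap F _ (c m.1) * l) *
            (algebraMap F _ (d n.1) + algebraMap F _ (c n.1) * l)
        rw [hd', hc']
        push_cast [map_sub, map_add, map_mul]
        linear_combination -(algebraMap F (AlgebraicClosure F) (c m.1) * algebraMap F _ (c n.1)) * hl }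
  refine isCyclic_of_subgroup_isDomain φ fun m n h => ?_
  have inj : ∀ k : M, φ k = 1 → k = 1 := by
    intro k hk
    have hk' : algebraMap F _ (d k.1) + algebraMap F _ (c k.1) * l = 1 := hk
    obtain ⟨e1, e2⟩ := hcm k.1 k.2
    have hc0 : c k.1 = 0 := by
      by_contra hne
      refine hroot ((1 - d k.1) / c k.1) ((algebraMap F (AlgebraicClosure F)).injective ?_)
      have hl' : algebraMap F (AlgebraicClosure F) ((1 - d k.1) / c k.1) = l := by
        rw [map_div₀, div_eq_iff (by simpa using hne), map_sub, map_one]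
        linear_combination -hk'
      rw [map_pow, map_sub, map_mul, map_one, hl']
      exact hl
    rw [hc0, map_zero, zero_mul, add_zero, map_eq_one_iff _ (algebraMap F (AlgebraicClosure F)).injective] at hk'
    have k10 : k.1.1 1 0 = 0 := (div_eq_zero_iff.1 hc0).resolve_right h10
    have k00 : k.1.1 0 0 = 1 := by simpa [d, hc0] using hk'
    rw [k10] at e1 e2
    have k01 : k.1.1 0 1 = 0 := by simpa [h10] using e1
    have k11 : k.1.1 1 1 = 1 := by
      rw [k00] at e2
      simpa [h10] using e2
    refine Subtype.ext (Subtype.ext ?_)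
    ext i j
    fin_cases i <;> fin_cases j <;> simp [k10, k00, k01, k11]
  have h' : φ (m * n⁻¹) = 1 := by
    rw [map_mul, h, ← map_mul, mul_inv_cancel, map_one]
  exact mul_inv_eq_one.1 (inj _ h')

end Cfsg.Agent.H77.TIInv
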