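import Cfsg.Agent.H77.TIInv.Orbits
import Cfsg.Agent.H77.TIInv.SLTorus
import Cfsg.Agent.H50.InvolutionCAField
import Cfsg.Agent.H6.Basic
import Cfsg.Agent.H21.Complement
import Cfsg.Agent.H28.BaerSuzuki
import Cfsg.Agent.H28.Dihedral

/-!
`|C_N(z)| = 2`: either `PSL₂(2^e)` or a dihedral group acting on an elementary abelian normal `2`-subgroup.
-/

set_option autoImplicit false
set_option linter.style.haveILetI false
set_option linter.unusedSectionVars false

open MulAction
open scoped Pointwise

namespace Cfsg.Agent.H77.TIInv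

universe u

variable {G : Type u} [Group G] [Finite G]

theorem le_of_normal_two (S : Sylow 2 G) {R : Subgroup G} [R.Normal] (hR : IsPGroup 2 R) :
    R ≤ (S : Subgroup G) := by
  haveI : Fact (Nat.Prime 2) := ⟨Nat.prime_two⟩
  obtain ⟨Q, hQ⟩ := hR.exists_le_sylow
  obtain ⟨g, rfl⟩ := exists_smul_eq G Q S
  intro x hx
  rw [Sylow.coe_subgroup_smul, Subgroup.mem_pointwise_smul_iff_inv_smul_mem]
  refine hQ ?_
  show (MulAut.conj g)⁻¹ x ∈ R
  rw [← map_inv, MulAut.conj_apply]
  exact Subgroup.Normal.conj_mem inferInstance x hx g⁻¹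

namespace Hyp

variable {M : Subgroup G} {z : G} (H : Hyp M z)

include H

/-- The small case. -/
theorem small (hn : ¬ M.Normal) (h2 : Nat.card (cz M z) = 2) :
    (∃ (F : Type) (_ : Field F) (_ : Fintype F) (e : ℕ), 1 < e ∧ Fintype.card F = 2 ^ e ∧ IsCyclic ↥M ∧
      Nat.card M = 2 ^ e + 1 ∧ Nonempty (G ≃* Matrix.ProjectiveSpecialLinearGroup (Fin 2) F)) ∨
    (∃ (d : ℕ) (E : Subgroup G), 1 ≤ d ∧ E.Normal ∧ (IsMulCommutative E ∧ ∀ a ∈ E, a ^ 2 = 1) ∧
      Nat.card E = 2 ^ (2 * d) ∧ E ⊓ nz M = ⊥ ∧ E ⊔ nz M = ⊤ ∧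
      Nonempty (↥(nz M) ≃* DihedralGroup (2 ^ d + 1))) := by
  classical
  haveI : Fact (Nat.Prime 2) := ⟨Nat.prime_two⟩
  set V := Subgroup.centralizer ({z} : Set G) with hV
  have hzV : z ∈ V := Subgroup.mem_centralizer_singleton_iff.2 rfl
  have hcz : ∀ c ∈ cz M z, c = 1 ∨ c = z := by
    intro c hc
    rw [or_iff_not_imp_left]
    intro hne
    exact congrArg Subtype.val (((Nat.card_eq_two_iff' (1 : cz M z)).1 h2).unique
      (y₁ := ⟨c, hc⟩) (y₂ := ⟨z, H.z_mem⟩) (fun e => hne (congrArg Subtype.val e))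
      (fun e => H.z_ne (congrArg Subtype.val e)))
  have hVsq : ∀ v ∈ V, v * v = 1 := by
    intro v hv
    have hvz : v * z = z * v := Subgroup.mem_centralizer_singleton_iff.1 hv
    by_cases hN : v ∈ nz M
    · rcases hcz v ⟨hN, hv⟩ with rfl | rfl
      · simp
      · exact H.zz
    · have hb : (v : G ⧸ nz M) ≠ base M := fun e => hN (eq_base_iff.1 e)
      obtain ⟨u, hu, -, huz, -⟩ := H.fixed_data hb (QuotientGroup.eq.2 (by
        show (z * v)⁻¹ * v ∈ nz M
        rw [← hvz, show (v * z)⁻¹ * v = z⁻¹ by group]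
        exact inv_mem H.zN))
      have huV : u ∈ V := Subgroup.mem_centralizer_singleton_iff.2 huz
      have huv' : u⁻¹ * v ∈ V := mul_mem (inv_mem huV) hv
      have huv : u⁻¹ * v ∈ cz M z := ⟨QuotientGroup.eq.1 hu.2, huv'⟩
      rcases hcz _ huv with e | e
      · rw [← inv_mul_eq_one.1 e]; exact mul_self_of_invs hu.1
      · rw [inv_mul_eq_iff_eq_mul] at e
        rw [e, show u * z * (u * z) = u * (z * u) * z by group, ← huz,
          show u * (u * z) * z = (u * u) * (z * z) by group, mul_self_of_invs hu.1, H.zz, one_mul]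
  have hVcomm : ∀ v ∈ V, ∀ w ∈ V, v * w = w * v := by
    intro v hv w hw
    have h := eq_inv_of_mul_eq_one_left (hVsq _ (mul_mem hv hw))
    rw [mul_inv_rev, inv_eq_of_mul_eq_one_right (hVsq v hv), inv_eq_of_mul_eq_one_right (hVsq w hw)] at h
    exact h
  have hVp : IsPGroup 2 V := fun v => ⟨1, Subtype.ext (by
    rw [SubmonoidClass.coe_pow, pow_one, pow_two]; exact hVsq v v.2)⟩
  set m := Nat.card M with hm
  set k := Nat.card H.Fix with hkdef
  have hk : 0 < k := H.fix_pos hn
  have hcardV : Nat.card V = 2 * (k + 1) := by rw [hV, H.card_centralizer, h2]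
  obtain ⟨e, he⟩ := IsPGroup.iff_card.1 hVp
  obtain ⟨d, hd⟩ : ∃ d, k + 1 = 2 ^ d := by
    refine ⟨e - 1, ?_⟩
    have he1 : e ≠ 0 := by rintro rfl; rw [hcardV] at he; omega
    rw [hcardV, ← Nat.sub_add_cancel (Nat.one_le_iff_ne_zero.2 he1), pow_succ] at he
    omega
  have hd1 : 1 ≤ d := by
    rcases Nat.eq_zero_or_pos d with rfl | h
    · simp at hd; omega
    · exact h
  have hG : Nat.card G = 2 * m * (m * k + 1) := by
    rw [H.card_group, h2, ← hm, ← hkdef]; ring
  set P := Nat.card H.cls with hP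
  have hPV : P * (k + 1) = m * (m * k + 1) := by
    have h := H.card_cls
    rw [← hP, ← hV, hcardV, hG] at h
    nlinarith
  have hI : Nat.card (invs G) ≤ m + 2 * (m * k) := by
    have := H.card_invs_le
    rwa [h2, ← hm, ← hkdef] at this
  have hPI : P ≤ Nat.card (invs G) := Nat.card_mono (Set.toFinite _) H.cls_subset
  have hm2 : ¬ 2 ∣ m := H.two_not_dvd
  have hm3 : 3 ≤ m := by
    have : 1 < m := (Subgroup.one_lt_card_iff_ne_bot M).2 H.ne
    omega
  have hmk : m ≤ 2 * k + 3 := by
    have h1 : m * (m * k + 1) ≤ m * ((2 * k + 1) * (k + 1)) := by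
      rw [← hPV]
      calc P * (k + 1) ≤ (m + 2 * (m * k)) * (k + 1) := Nat.mul_le_mul_right _ (hPI.trans hI)
        _ = m * ((2 * k + 1) * (k + 1)) := by ring
    have h1' := Nat.le_of_mul_le_mul_left h1 (by omega)
    have h3 : m * k ≤ (2 * k + 3) * k := by nlinarith
    exact Nat.le_of_mul_le_mul_right h3 hk
  have hdvd : k + 1 ∣ m - 1 := by
    have hcop : (k + 1).Coprime m := by
      rw [hd]
      exact Nat.Coprime.pow_left d (Nat.prime_two.coprime_iff_not_dvd.2 hm2)
    have h1 : k + 1 ∣ m * k + 1 := hcop.dvd_of_dvd_mul_left ⟨P, by rw [← hPV, mul_comm]⟩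
    obtain ⟨c, hc⟩ := h1
    refine (Nat.dvd_add_right (Dvd.intro c hc.symm : k + 1 ∣ m * k + 1)).1 ?_
    refine ⟨m, ?_⟩
    have : m * k + m = (k + 1) * m := by ring
    omega
  obtain ⟨j, hj⟩ := hdvd
  have hj2 : j = 1 ∨ j = 2 := by
    have h1 : j ≠ 0 := by rintro rfl; rw [Nat.mul_zero] at hj; omega
    have h3 : (k + 1) * j ≤ (k + 1) * 2 := by omega
    have := Nat.le_of_mul_le_mul_left h3 (by omega)
    omega
  rcases hj2 with rfl | rfl
  swap
  · -- `m = q + 1`
    left
    have hm' : m = 2 * k + 3 := by omega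
    have hPeq : P = m * (2 * k + 1) := by
      have h1 : P * (k + 1) = (m * (2 * k + 1)) * (k + 1) := by
        rw [hPV, hm']; ring
      exact Nat.eq_of_mul_eq_mul_right (by omega) h1
    have hall : H.cls = invs G := by
      refine Set.Finite.eq_of_subset_of_card_le (Set.toFinite _) H.cls_subset ?_
      rw [← hP, hPeq]
      refine hI.trans (le_of_eq ?_)
      ring
    obtain ⟨T, hVT⟩ := hVp.exists_le_sylow
    have hca : H50.InvolutionCA T := by
      refine ⟨fun hcyc => ?_, fun hnor => ?_, fun t ht => ?_⟩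
      · haveI := hcyc
        haveI : IsCyclic V := isCyclic_of_injective (Subgroup.inclusion hVT) (Subgroup.inclusion_injective hVT)
        obtain ⟨g, hg⟩ := IsCyclic.exists_ofOrder_eq_natCard (α := V)
        have : orderOf g ∣ 2 := orderOf_dvd_of_pow_eq_one (Subtype.ext (by
          rw [SubmonoidClass.coe_pow, pow_two]; exact hVsq g g.2))
        have := Nat.le_of_dvd two_pos this
        rw [hg, hcardV] at this
        omega
      · obtain ⟨n, hnM, hn1⟩ := (Subgroup.bot_or_exists_ne_one M).resolve_left H.ne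
        have hzT : z ∈ (T : Subgroup G) := hVT hzV
        have hmem : n * n ∈ (T : Subgroup G) := by
          have e : n * n = (n * z * n⁻¹) * z⁻¹ := by
            rw [show (n * z * n⁻¹) * z⁻¹ = n * (z * n⁻¹ * z⁻¹) by group, H.z_invert (inv_mem hnM), inv_inv]
          rw [e]
          exact mul_mem (hnor.conj_mem z hzT n) (inv_mem hzT)
        refine hn1 (H.eq_one_of_sq hnM ?_)
        obtain ⟨i, hi⟩ := T.2 ⟨n * n, hmem⟩
        rw [← orderOf_eq_one_iff]
        refine Nat.eq_one_of_dvd_coprimes (Nat.Coprime.pow_left i (Nat.prime_two.coprime_iff_not_dvd.2 hm2))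
          (orderOf_dvd_of_pow_eq_one (congrArg Subtype.val hi))
          (Subgroup.orderOf_dvd_natCard _ (mul_mem hnM hnM))
      · obtain ⟨g, rfl⟩ : t ∈ H.cls := by rw [hall]; exact ht
        have hconj : ∀ c ∈ Subgroup.centralizer ({g * z * g⁻¹} : Set G), g⁻¹ * c * g ∈ V := fun c hc => by
          refine Subgroup.mem_centralizer_singleton_iff.2 ?_
          have h := Subgroup.mem_centralizer_singleton_iff.1 hc
          calc g⁻¹ * c * g * z = g⁻¹ * (c * (g * z * g⁻¹)) * g := by group
            _ = g⁻¹ * ((g * z * g⁻¹) * c) * g := by rw [h]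
            _ = z * (g⁻¹ * c * g) := by group
        refine ⟨⟨⟨fun c c' => Subtype.ext ?_⟩⟩, fun c hc => ?_⟩
        · have h := hVcomm _ (hconj c c.2) _ (hconj c' c'.2)
          show (c : G) * c' = c' * c
          calc (c : G) * c' = g * ((g⁻¹ * c * g) * (g⁻¹ * c' * g)) * g⁻¹ := by group
            _ = g * ((g⁻¹ * c' * g) * (g⁻¹ * c * g)) * g⁻¹ := by rw [h]
            _ = c' * c := by group
        · have h := hVsq _ (hconj c hc)
          calc c ^ 2 = g * ((g⁻¹ * c * g) * (g⁻¹ * c * g)) * g⁻¹ := by rw [pow_two]; group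
            _ = 1 := by rw [h]; group
    have hTV : (T : Subgroup G) = V :=
      le_antisymm (fun a ha => Subgroup.mem_centralizer_singleton_iff.2 (hca.comm ha (hVT hzV))) hVT
    obtain ⟨F, iF, iFF, hF, ⟨ψ⟩⟩ := hca.is_psl_two
    have hFq : Fintype.card F = 2 ^ (d + 1) := by
      rw [hF, hTV, hcardV, hd, pow_succ, mul_comm]
    refine ⟨F, iF, iFF, d + 1, by omega, hFq, ?_, ?_, ⟨ψ⟩⟩
    · have hcen : Subgroup.center (Matrix.SpecialLinearGroup (Fin 2) F) = ⊥ := by
        refine Subgroup.card_eq_one.1 ?_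
        rw [H6.card_center_sl2 hFq]
        refine Nat.prime_two.coprime_iff_not_dvd.2 fun hh => ?_
        have : 2 ∣ 2 ^ (d + 1) := dvd_pow_self 2 (by omega)
        have := Nat.one_le_two_pow (n := d + 1)
        omega
      let π := QuotientGroup.mk' (Subgroup.center (Matrix.SpecialLinearGroup (Fin 2) F))
      have hbij : Function.Bijective π :=
        ⟨(MonoidHom.ker_eq_bot_iff _).1 (by rw [QuotientGroup.ker_mk', hcen]), QuotientGroup.mk'_surjective _⟩
      let ι : G ≃* Matrix.SpecialLinearGroup (Fin 2) F := ψ.trans (MulEquiv.ofBijective π hbij).symm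
      let M' := M.map ι.toMonoidHom
      haveI : IsCyclic M' := sl2_cyclic_of_card_succ (by rw [hFq]; exact even_two.pow_of_ne_zero (by omega)) M'
        (by rintro _ ⟨a, ha, rfl⟩ _ ⟨b, hb, rfl⟩; rw [← map_mul, ← map_mul, H.comm ha hb])
        (by rw [Nat.card_congr (M.equivMapOfInjective ι.toMonoidHom ι.injective).symm.toEquiv, ← hm, hm', hFq,
              pow_succ, ← hd]; ring)
      exact (M.equivMapOfInjective ι.toMonoidHom ι.injective).isCyclic.2 inferInstance
    · rw [hm', pow_succ, ← hd]; ring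
  · -- `m = f + 1`
    right
    have hm' : m = k + 2 := by omega
    set f := k + 1 with hf
    have hf2 : 2 ≤ f := by omega
    have hmk1 : m * k + 1 = f * f := by rw [hm', hf]; ring
    have hGf : Nat.card G = 2 * m * (f * f) := by rw [hG, hmk1]
    have hPf : P = m * f := by
      refine Nat.eq_of_mul_eq_mul_right (by omega : 0 < f) ?_
      rw [hPV, hmk1]; ring
    -- the involutions are the translates of those of `V`
    have hinvs : ∀ x ∈ invs G, ∃ n ∈ M, n⁻¹ * x * n ∈ V := by
      intro x hx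
      by_cases hN : x ∈ nz M
      · obtain ⟨n, hn', hnn⟩ : ∃ n ∈ M, n * n = x * z := by
          obtain ⟨i, hi⟩ : Odd m := Nat.not_even_iff_odd.1 fun h => hm2 (even_iff_two_dvd.1 h)
          have hmem := H.invs_nz hx hN
          refine ⟨(x * z) ^ (i + 1), pow_mem hmem _, ?_⟩
          have h1 : (x * z) ^ Nat.card M = 1 :=
            congrArg Subtype.val (pow_card_eq_one' (x := (⟨x * z, hmem⟩ : M)))
          rw [← pow_add, show i + 1 + (i + 1) = Nat.card M + 1 by omega, pow_succ, h1, one_mul]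
        refine ⟨n, hn', ?_⟩
        have h1 : x = n * n * z := by rw [hnn, mul_assoc, H.zz, mul_one]
        rw [h1, show n⁻¹ * (n * n * z) * n = n * (z * n * z⁻¹) * z by group, H.z_invert hn', mul_inv_cancel,
          one_mul]
        exact hzV
      · obtain ⟨n, hn', ω, hω, hzω, he⟩ := H.cover (ω := (x : G ⧸ nz M)) fun e => hN (eq_base_iff.1 e)
        refine ⟨n, hn', ?_⟩
        obtain ⟨-, -, -, -, -, hall, -⟩ := H.fixed_data hω hzω
        refine Subgroup.mem_centralizer_singleton_iff.2 (hall _ ?_)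
        have h := conj_mem_fib (inv_mem (Subgroup.le_normalizer hn' : n ∈ nz M))
          (show x ∈ fib M (x : G ⧸ nz M) from ⟨hx, rfl⟩)
        rwa [inv_inv, he, inv_smul_smul] at h
    have hinj : ∀ {n n' : G} {v v' : G}, n ∈ M → n' ∈ M → v ∈ V → v' ∈ V → v ≠ 1 →
        n * v * n⁻¹ = n' * v' * n'⁻¹ → n = n' ∧ v = v' := by
      intro n n' v v' hn1 hn2 hv hv' hv1 heq
      suffices h : n = n' by subst h; exact ⟨rfl, mul_left_cancel (mul_right_cancel heq)⟩
      set c := n'⁻¹ * n with hc
      have hcM : c ∈ M := mul_mem (inv_mem hn2) hn1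
      have he' : c * v * c⁻¹ = v' := by
        rw [hc, show n'⁻¹ * n * v * (n'⁻¹ * n)⁻¹ = n'⁻¹ * (n * v * n⁻¹) * n' by group, heq]; group
      have hvz := Subgroup.mem_centralizer_singleton_iff.1 hv
      have hv'z := Subgroup.mem_centralizer_singleton_iff.1 hv'
      by_cases hN : v ∈ nz M
      · rcases hcz v ⟨hN, hv⟩ with rfl | rfl
        · exact absurd rfl hv1
        · have hv'N : v' ∈ nz M := by
            rw [← he']
            exact mul_mem (mul_mem (Subgroup.le_normalizer hcM) hN) (inv_mem (Subgroup.le_normalizer hcM))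
          rcases hcz v' ⟨hv'N, hv'⟩ with rfl | rfl
          · exact absurd (conj_eq_one_iff.1 he') hv1
          · have hfree := H.free H.z_inv hcM (by rw [eq_comm]; exact mul_inv_eq_iff_eq_mul.1 he')
            exact (inv_mul_eq_one.1 hfree).symm
      · have hfix : ∀ w : G, w * z = z * w → z • (w : G ⧸ nz M) = (w : G ⧸ nz M) := fun w hw => by
          refine QuotientGroup.eq.2 ?_
          show (z * w)⁻¹ * w ∈ nz M
          rw [← hw, show (w * z)⁻¹ * w = z⁻¹ by group]
          exact inv_mem H.zN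
        have hb : (v : G ⧸ nz M) ≠ base M := fun e => hN (eq_base_iff.1 e)
        have himg : c • (v : G ⧸ nz M) = (v' : G ⧸ nz M) := by
          refine QuotientGroup.eq.2 ?_
          show (c * v)⁻¹ * v' ∈ nz M
          rw [← he', show (c * v)⁻¹ * (c * v * c⁻¹) = c⁻¹ by group]
          exact inv_mem (Subgroup.le_normalizer hcM)
        have h3 := (H.translate_inj hcM (one_mem M) hb (hfix v hvz) (hfix v' hv'z)
          (by rw [one_smul]; exact himg)).1
        exact (inv_mul_eq_one.1 h3).symm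
    have hVcard : Nat.card {v : G // v ∈ V ∧ v ≠ 1} + 1 = 2 * f := by
      rw [hf, ← hcardV]
      haveI := Fintype.ofFinite V
      rw [show Nat.card {v : G // v ∈ V ∧ v ≠ 1} = Nat.card {v : V // v ≠ 1} from Nat.card_congr
        { toFun := fun v => ⟨⟨v.1, v.2.1⟩, fun e => v.2.2 (congrArg Subtype.val e)⟩
          invFun := fun v => ⟨v.1.1, v.1.2, fun e => v.2 (Subtype.ext e)⟩
          left_inv := fun v => rfl
          right_inv := fun v => rfl }, Nat.card_eq_fintype_card, Fintype.card_subtype_compl,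
        Fintype.card_subtype_eq, ← Nat.card_eq_fintype_card]
      have : 0 < Nat.card V := Nat.card_pos
      omega
    have hIeq : Nat.card (invs G) = m * Nat.card {v : G // v ∈ V ∧ v ≠ 1} := by
      rw [hm, ← Nat.card_prod]
      refine (Nat.card_eq_of_bijective (fun p : M × {v : G // v ∈ V ∧ v ≠ 1} =>
        (⟨(p.1 : G) * p.2.1 * (p.1 : G)⁻¹, conj_mem_invs _ (invs_of_mul_self (hVsq _ p.2.2.1) p.2.2.2)⟩ : invs G))
        ⟨fun p q e => ?_, fun x => ?_⟩).symm
      · obtain ⟨h1, h2⟩ := hinj p.1.2 q.1.2 p.2.2.1 q.2.2.1 p.2.2.2 (congrArg Subtype.val e)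
        exact Prod.ext (Subtype.ext h1) (Subtype.ext h2)
      · obtain ⟨n, hn', hv⟩ := hinvs x x.2
        refine ⟨(⟨n, hn'⟩, ⟨n⁻¹ * x.1 * n, hv, fun e => ne_one_of_invs x.2 ?_⟩), Subtype.ext (by group)⟩
        calc x.1 = n * (n⁻¹ * x.1 * n) * n⁻¹ := by group
          _ = 1 := by rw [e]; group
    have hclsV : P = m * Nat.card {v : G // v ∈ V ∧ v ∈ H.cls} := by
      rw [hm, ← Nat.card_prod]
      refine (Nat.card_eq_of_bijective (fun p : M × {v : G // v ∈ V ∧ v ∈ H.cls} =>
        (⟨(p.1 : G) * p.2.1 * (p.1 : G)⁻¹, by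
          obtain ⟨g, hg⟩ := p.2.2.2
          exact ⟨(p.1 : G) * g, by rw [← hg]; group⟩⟩ : H.cls))
        ⟨fun p q e => ?_, fun x => ?_⟩).symm
      · obtain ⟨h1, h2⟩ := hinj p.1.2 q.1.2 p.2.2.1 q.2.2.1 (ne_one_of_invs (H.cls_subset p.2.2.2))
          (congrArg Subtype.val e)
        exact Prod.ext (Subtype.ext h1) (Subtype.ext h2)
      · obtain ⟨n, hn', hv⟩ := hinvs x (H.cls_subset x.2)
        obtain ⟨g, hg⟩ := x.2
        exact ⟨(⟨n, hn'⟩, ⟨n⁻¹ * x.1 * n, hv, n⁻¹ * g, by rw [← hg]; group⟩), Subtype.ext (by group)⟩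
    have hclsf : Nat.card {v : G // v ∈ V ∧ v ∈ H.cls} = f := by
      rw [hPf] at hclsV
      exact (Nat.eq_of_mul_eq_mul_left (by omega) hclsV).symm
    -- the normaliser of `V`
    set S := Subgroup.normalizer (V : Set G) with hSdef
    have hVS : V ≤ S := Subgroup.le_normalizer
    have hSmap : ∀ y : G, y ∈ V → y ∈ H.cls → ∃ s ∈ S, s * z * s⁻¹ = y := by
      rintro _ hyV ⟨g, rfl⟩
      refine ⟨g, ?_, rfl⟩
      have hle : ∀ w ∈ V, g⁻¹ * w * g ∈ V := fun w hw => by
        refine Subgroup.mem_centralizer_singleton_iff.2 ?_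
        have h := hVcomm w hw _ hyV
        calc g⁻¹ * w * g * z = g⁻¹ * (w * (g * z * g⁻¹)) * g := by group
          _ = g⁻¹ * ((g * z * g⁻¹) * w) * g := by rw [h]
          _ = z * (g⁻¹ * w * g) := by group
      have hmap : V.map (MulAut.conj g⁻¹).toMonoidHom = V := by
        refine Subgroup.eq_of_le_of_card_ge ?_ ?_
        · rintro _ ⟨w, hw, rfl⟩
          show g⁻¹ * w * g⁻¹⁻¹ ∈ V
          rw [inv_inv]; exact hle w hw
        · rw [Nat.card_congr (V.equivMapOfInjective _ (MulAut.conj g⁻¹).injective).symm.toEquiv]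
      have hginv : g⁻¹ ∈ S := by
        refine Subgroup.mem_normalizer_iff.2 fun w => ⟨fun hw => ?_, fun hw => ?_⟩
        · rw [inv_inv]; exact hle w hw
        · rw [← hmap] at hw
          obtain ⟨w', hw', e⟩ := hw
          rwa [← (MulAut.conj g⁻¹).injective e]
      exact inv_mem_iff.1 hginv
    have hScard : Nat.card S = 2 ^ (2 * d + 1) := by
      let φ : S → {v : G // v ∈ V ∧ v ∈ H.cls} := fun s =>
        ⟨(s : G) * z * (s : G)⁻¹, (Subgroup.mem_normalizer_iff.1 s.2 z).1 hzV, ⟨s, rfl⟩⟩
      have hsur : Function.Surjective φ := fun y => by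
        obtain ⟨s, hs, e⟩ := hSmap y y.2.1 y.2.2
        exact ⟨⟨s, hs⟩, Subtype.ext e⟩
      choose σ hσ using hsur
      have hbij : Function.Bijective (fun p : {v : G // v ∈ V ∧ v ∈ H.cls} × V =>
          (σ p.1 * ⟨p.2.1, hVS p.2.2⟩ : S)) := by
        constructor
        · intro p q e
          have h1 : p.1 = q.1 := by
            have e' := congrArg φ e
            have hp : ∀ p : {v : G // v ∈ V ∧ v ∈ H.cls} × V, φ (σ p.1 * ⟨p.2.1, hVS p.2.2⟩) = p.1 := fun p => by
              conv_rhs => rw [← hσ p.1]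
              refine Subtype.ext ?_
              show (σ p.1 : G) * p.2.1 * z * ((σ p.1 : G) * p.2.1)⁻¹ = (σ p.1 : G) * z * (σ p.1 : G)⁻¹
              rw [mul_assoc (σ p.1 : G) p.2.1 z, Subgroup.mem_centralizer_singleton_iff.1 p.2.2]
              group
            rwa [hp, hp] at e'
          refine Prod.ext h1 (Subtype.ext ?_)
          have h3 : (σ p.1 : G) * p.2.1 = (σ q.1 : G) * q.2.1 := congrArg Subtype.val e
          rw [h1] at h3
          exact mul_left_cancel h3
        · intro s
          have hmem : ((σ (φ s) : S) : G)⁻¹ * (s : G) ∈ V := by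
            refine Subgroup.mem_centralizer_singleton_iff.2 ?_
            have h := congrArg Subtype.val (hσ (φ s))
            change (σ (φ s) : G) * z * (σ (φ s) : G)⁻¹ = (s : G) * z * (s : G)⁻¹ at h
            calc ((σ (φ s) : S) : G)⁻¹ * s * z = (σ (φ s) : G)⁻¹ * ((s : G) * z * (s : G)⁻¹) * s := by group
              _ = (σ (φ s) : G)⁻¹ * ((σ (φ s) : G) * z * (σ (φ s) : G)⁻¹) * s := by rw [h]
              _ = z * ((σ (φ s) : G)⁻¹ * s) := by group
          exact ⟨(φ s, ⟨_, hmem⟩), Subtype.ext (mul_inv_cancel_left _ _)⟩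
      rw [← Nat.card_eq_of_bijective _ hbij, Nat.card_prod, hclsf, hcardV, hd]
      ring
    have hSp : IsPGroup 2 S := IsPGroup.of_card hScard
    have hff : f * f = 2 ^ (2 * d) := by rw [hd]; ring
    let SS : Sylow 2 G := Sylow.ofCard S (by
      rw [hScard]
      congr 1
      rw [hGf, hff, show 2 * m * 2 ^ (2 * d) = m * 2 ^ (2 * d + 1) by ring,
        Nat.factorization_mul (by omega) (by positivity), Finsupp.add_apply,
        Nat.factorization_eq_zero_of_not_dvd hm2, Nat.Prime.factorization_pow Nat.prime_two,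
        Finsupp.single_eq_same, zero_add])
    -- the index two subgroup of `V`
    set W := ⁅V, S⁆ with hW
    have hWV : W ≤ V := Subgroup.le_normalizer_iff_commutator_le_left.1 le_rfl
    have hWne : W ≠ V := by
      intro hWeq
      haveI : Group.IsNilpotent S := hSp.isNilpotent
      obtain ⟨n, hn'⟩ := (Subgroup.isNilpotent_iff_lowerCentralSeries S).1 (inferInstance : Group.IsNilpotent S)
      have hle : ∀ i, V ≤ S.lowerCentralSeries i := by
        intro i
        induction i with
        | zero => exact hVS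
        | succ i ih =>
          rw [Subgroup.lowerCentralSeries_succ, ← hWeq, hW]
          exact Subgroup.commutator_mono ih le_rfl
      have h1 := hle n
      rw [hn', le_bot_iff] at h1
      rw [h1, Subgroup.mem_bot] at hzV
      exact H.z_ne hzV
    have hWdiff : ∀ y ∈ V, y ∈ H.cls → y * z⁻¹ ∈ W := by
      intro y hy hyc
      obtain ⟨s, hs, rfl⟩ := hSmap y hy hyc
      rw [hW, Subgroup.commutator_comm, ← commutatorElement_def]
      exact Subgroup.commutator_mem_commutator hs hzV
    have hWcard : Nat.card W = f := by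
      refine le_antisymm ?_ ?_
      · obtain ⟨q, hq⟩ := Subgroup.card_dvd_of_le hWV
        have hq1 : q ≠ 1 := fun h => hWne (Subgroup.eq_of_le_of_card_ge hWV (by rw [hq, h, mul_one]))
        have hq0 : q ≠ 0 := by rintro rfl; rw [mul_zero, hcardV] at hq; omega
        have : Nat.card W * 2 ≤ 2 * f := by rw [hf, ← hcardV, hq]; exact Nat.mul_le_mul_left _ (by omega)
        omega
      · rw [← hclsf]
        exact Nat.card_le_card_of_injective
          (fun v => (⟨v.1 * z⁻¹, hWdiff v.1 v.2.1 v.2.2⟩ : W))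
          fun v w e => Subtype.ext (mul_right_cancel (congrArg Subtype.val e))
    -- a normal subgroup made of the remaining involutions
    set E : Set G := {x | x ∈ invs G ∧ x ∉ H.cls} with hE
    have hEcard : Nat.card E + 1 = f * f := by
      have h1 : Nat.card E + P = Nat.card (invs G) := by
        rw [hP, ← Nat.card_sum]
        refine Nat.card_congr
          { toFun := fun s => Sum.elim (fun x => ⟨x.1, x.2.1⟩) (fun x => ⟨x.1, H.cls_subset x.2⟩) s
            invFun := fun x => if h : x.1 ∈ H.cls then Sum.inr ⟨x.1, h⟩ else Sum.inl ⟨x.1, x.2, h⟩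
            left_inv := ?_
            right_inv := fun x => by by_cases h : x.1 ∈ H.cls <;> simp [h] }
        rintro (⟨x, h1, h2⟩ | ⟨x, h⟩)
        · simp [h2]
        · simp [h]
      rw [hIeq, hPf] at h1
      have h3 : m * Nat.card {v : G // v ∈ V ∧ v ≠ 1} + m = m * f + m * f := by
        rw [← Nat.mul_succ, Nat.succ_eq_add_one, hVcard]; ring
      have h4 : m * f = f * f + f := by rw [hm', hf]; ring
      omega
    have hEconj : ∀ g : G, ∀ x ∈ E, g * x * g⁻¹ ∈ E := fun g x hx => ⟨conj_mem_invs g hx.1, fun ⟨a, ha⟩ =>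
      hx.2 ⟨g⁻¹ * a, by
        rw [show g⁻¹ * a * z * (g⁻¹ * a)⁻¹ = g⁻¹ * (a * z * a⁻¹) * g by group, ha]; group⟩⟩
    have hpair : ∀ u ∈ E, ∀ v ∈ E, IsPGroup 2 ↥(Subgroup.closure ({u, v} : Set G)) := by
      intro u hu v hv
      have hu1 := mul_self_of_invs hu.1
      have hv1 := mul_self_of_invs hv.1
      obtain ⟨ψ⟩ := H28.closure_pair_dihedral hu1 hv1 (ne_one_of_invs hu.1) (ne_one_of_invs hv.1)
      have hpos : orderOf (u * v) ≠ 0 := (isOfFinOrder_of_finite _).orderOf_pos.ne'
      have hpow : ∀ {r : ℕ}, r.Prime → r ∣ orderOf (u * v) → r = 2 := by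
        intro r hr hrd
        by_contra hr2
        haveI : Fact r.Prime := ⟨hr⟩
        set x := (u * v) ^ (orderOf (u * v) / r) with hx
        have hxo : orderOf x = r := orderOf_pow_orderOf_div hpos hrd
        have hinvx : u * x * u⁻¹ = x⁻¹ := by
          have h : u * (u * v) * u⁻¹ = (u * v)⁻¹ := by
            rw [inv_of_invs hu.1, H28.conj_mul_eq_inv hu1 hv1]
          rw [hx, ← conj_pow, h, inv_pow]
        obtain ⟨R⟩ : Nonempty (Sylow r M) := inferInstance
        let RM : Sylow r G := Sylow.ofCard ((R : Subgroup M).map M.subtype) (by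
          rw [Nat.card_congr ((R : Subgroup M).equivMapOfInjective _ M.subtype_injective).symm.toEquiv,
            R.card_eq_multiplicity, ← hm, hGf, hff, show 2 * m * 2 ^ (2 * d) = m * 2 ^ (2 * d + 1) by ring,
            Nat.factorization_mul (by omega) (by positivity), Finsupp.add_apply,
            Nat.Prime.factorization_pow Nat.prime_two, Finsupp.single_eq_of_ne hr2, add_zero])
        obtain ⟨Q, hQ⟩ := (IsPGroup.of_card (n := 1) (by rw [Nat.card_zpowers, hxo, pow_one]) :
          IsPGroup r (Subgroup.zpowers x)).exists_le_sylow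
        obtain ⟨g, hg⟩ := exists_smul_eq G Q RM
        have hxM : g * x * g⁻¹ ∈ M := by
          have h1 : g * x * g⁻¹ ∈ ((g • Q : Sylow r G) : Subgroup G) := ⟨x, hQ (Subgroup.mem_zpowers x), rfl⟩
          rw [hg] at h1
          exact Subgroup.map_subtype_le (R : Subgroup M) h1
        have hxne : g * x * g⁻¹ ≠ 1 := fun e => hr.ne_one (by rw [← hxo, conj_eq_one_iff.1 e, orderOf_one])
        have hN : g * u * g⁻¹ ∈ nz M := by
          refine H.mem_nz hxM hxne ?_
          rw [show (g * u * g⁻¹) * (g * x * g⁻¹) * (g * u * g⁻¹)⁻¹ = g * (u * x * u⁻¹) * g⁻¹ by group, hinvx,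
            show g * x⁻¹ * g⁻¹ = (g * x * g⁻¹)⁻¹ by group]
          exact inv_mem hxM
        have hE' := hEconj g u hu
        obtain ⟨n, hn', hv'⟩ := hinvs _ hE'.1
        have hv'N : n⁻¹ * (g * u * g⁻¹) * n ∈ nz M :=
          mul_mem (mul_mem (inv_mem (Subgroup.le_normalizer hn')) hN) (Subgroup.le_normalizer hn')
        rcases hcz _ ⟨hv'N, hv'⟩ with h1 | h1
        · refine ne_one_of_invs hE'.1 ?_
          calc g * u * g⁻¹ = n * (n⁻¹ * (g * u * g⁻¹) * n) * n⁻¹ := by group
            _ = 1 := by rw [h1]; group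
        · refine hE'.2 ⟨n, ?_⟩
          rw [← h1]; group
      refine IsPGroup.of_card (n := (orderOf (u * v)).primeFactorsList.length + 1) ?_
      rw [Nat.card_congr ψ.toEquiv, DihedralGroup.nat_card, pow_succ, mul_comm]
      congr 1
      exact Nat.eq_prime_pow_of_unique_prime_dvd hpos hpow
    let R := (SS : Subgroup G).normalCore
    haveI hRn : R.Normal := Subgroup.normalCore_normal _
    have hRS : R ≤ S := Subgroup.normalCore_le _
    have hRp : IsPGroup 2 R := hSp.to_le hRS
    have hER : E ⊆ R := by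
      intro u hu
      obtain ⟨K, hK, hKp, huK⟩ := H28.baer_suzuki_element (p := 2) u fun g => hpair u hu _ (hEconj g u hu)
      haveI := hK
      exact Subgroup.normal_le_normalCore.2 (le_of_normal_two SS hKp) huK
    have hzR : z ∉ R := by
      intro hz'
      obtain ⟨n, hnM, hn1⟩ := (Subgroup.bot_or_exists_ne_one M).resolve_left H.ne
      have hmem : n * n ∈ R := by
        have e : n * n = (n * z * n⁻¹) * z⁻¹ := by
          rw [show (n * z * n⁻¹) * z⁻¹ = n * (z * n⁻¹ * z⁻¹) by group, H.z_invert (inv_mem hnM), inv_inv]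
        rw [e]
        exact mul_mem (hRn.conj_mem z hz' n) (inv_mem hz')
      refine hn1 (H.eq_one_of_sq hnM ?_)
      obtain ⟨i, hi⟩ := hRp ⟨n * n, hmem⟩
      rw [← orderOf_eq_one_iff]
      exact Nat.eq_one_of_dvd_coprimes (Nat.Coprime.pow_left i (Nat.prime_two.coprime_iff_not_dvd.2 hm2))
        (orderOf_dvd_of_pow_eq_one (congrArg Subtype.val hi)) (Subgroup.orderOf_dvd_natCard _ (mul_mem hnM hnM))
    have hRcls : ∀ x ∈ R, x ∉ H.cls := by
      rintro _ hx ⟨g, rfl⟩
      have := hRn.conj_mem _ hx g⁻¹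
      exact hzR (by simpa [mul_assoc] using this)
    have hRcard : Nat.card R ≤ f * f := by
      obtain ⟨q, hq⟩ := Subgroup.card_dvd_of_le hRS
      have hq1 : q ≠ 1 := fun h => hzR (by
        rw [Subgroup.eq_of_le_of_card_ge hRS (by rw [hq, h, mul_one])]; exact hVS hzV)
      have hq0 : q ≠ 0 := by
        rintro rfl
        rw [mul_zero, hScard] at hq
        exact absurd hq (by positivity)
      have h5 : Nat.card R * 2 ≤ 2 ^ (2 * d + 1) := by rw [← hScard, hq]; exact Nat.mul_le_mul_left _ (by omega)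
      rw [pow_succ, ← hff] at h5
      omega
    let ι : Option E → R := fun o => o.elim 1 fun x => ⟨x.1, hER x.2⟩
    have hιbij : Function.Bijective ι := by
      refine Function.Injective.bijective_of_nat_card_le ?_ (by rw [Finite.card_option, hEcard]; exact hRcard)
      rintro (_ | x) (_ | y) h
      · rfl
      · exact absurd (congrArg Subtype.val h).symm (ne_one_of_invs y.2.1)
      · exact absurd (congrArg Subtype.val h) (ne_one_of_invs x.2.1)
      · exact congrArg some (Subtype.ext (congrArg (fun r : R => (r : G)) h))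
    have hRsq : ∀ x ∈ R, x * x = 1 := by
      intro x hx
      obtain ⟨o, ho⟩ := hιbij.2 ⟨x, hx⟩
      rcases o with _ | y
      · rw [show x = 1 from (congrArg Subtype.val ho).symm]; simp
      · rw [show x = y.1 from (congrArg Subtype.val ho).symm]; exact mul_self_of_invs y.2.1
    have hRcard' : Nat.card R = f * f := by
      rw [← Nat.card_eq_of_bijective ι hιbij, Finite.card_option, hEcard]
    have hRN : R ⊓ nz M = ⊥ := by
      rw [Subgroup.eq_bot_iff_forall]
      rintro x ⟨hx, hxN⟩
      by_contra hne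
      have hxi := invs_of_mul_self (hRsq x hx) hne
      obtain ⟨n, hn', hv'⟩ := hinvs x hxi
      have hv'N : n⁻¹ * x * n ∈ nz M :=
        mul_mem (mul_mem (inv_mem (Subgroup.le_normalizer hn')) hxN) (Subgroup.le_normalizer hn')
      rcases hcz _ ⟨hv'N, hv'⟩ with h1 | h1
      · refine hne ?_
        calc x = n * (n⁻¹ * x * n) * n⁻¹ := by group
          _ = 1 := by rw [h1]; group
      · refine hRcls x hx ⟨n, ?_⟩
        rw [← h1]; group
    have htop : R ⊔ nz M = ⊤ := by
      refine (Subgroup.isComplement'_of_card_mul_and_disjoint ?_ (disjoint_iff.2 hRN)).sup_eq_top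
      rw [hRcard', H.card_nz, h2, ← hm, hGf]; ring
    haveI : Nontrivial R := by
      rw [← Finite.one_lt_card_iff_nontrivial, hRcard']
      nlinarith
    haveI : IsMulCommutative M := ⟨⟨fun a b => Subtype.ext (H.comm a.2 b.2)⟩⟩
    have hcyc : IsCyclic M := by
      refine H21.isCyclic_of_comm_fpf (K := R) ((MulAut.conjNormal (H := R)).comp M.subtype) fun a ha x hx => ?_
      by_contra hx1
      have h : (a : G) * x * (a : G)⁻¹ = x := by
        have := congrArg (fun r : R => (r : G)) hx
        simpa [MulAut.conjNormal_apply] using this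
      exact ha (Subtype.ext (H.free (invs_of_mul_self (hRsq x x.2) fun e => hx1 (Subtype.ext e)) a.2
        (mul_inv_eq_iff_eq_mul.1 h).symm))
    refine ⟨d, R, hd1, hRn, ⟨⟨⟨fun a b => Subtype.ext ?_⟩⟩, fun a ha => by rw [pow_two]; exact hRsq a ha⟩,
      by rw [hRcard', hff], hRN, htop, ?_⟩
    · have h := eq_inv_of_mul_eq_one_left (hRsq _ (mul_mem a.2 b.2))
      rw [mul_inv_rev, inv_eq_of_mul_eq_one_right (hRsq a a.2), inv_eq_of_mul_eq_one_right (hRsq b b.2)] at h
      exact h
    · obtain ⟨g, hg⟩ := IsCyclic.exists_ofOrder_eq_natCard (α := M)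
      have hgM : Subgroup.zpowers (g : G) = M := by
        refine Subgroup.eq_of_le_of_card_ge (Subgroup.zpowers_le.2 g.2) ?_
        rw [Nat.card_zpowers, Subgroup.orderOf_coe, hg]
      have hy : (z * g) * (z * (g : G)) = 1 := by
        rw [show z * (g : G) * (z * g) = (z * g * z⁻¹) * (z * z) * g by group, H.z_invert g.2, H.zz, mul_one,
          inv_mul_cancel]
      have hy1 : z * (g : G) ≠ 1 := fun e => H.z_ne (H.eq_one_of_mem
        (eq_inv_of_mul_eq_one_left e ▸ inv_mem g.2) H.z_mem)
      obtain ⟨ψ⟩ := H28.closure_pair_dihedral H.zz hy H.z_ne hy1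
      have hzz' : z * (z * (g : G)) = g := by rw [← mul_assoc, H.zz, one_mul]
      rw [hzz', Subgroup.orderOf_coe, hg, ← hm, hm', show k + 2 = 2 ^ d + 1 by rw [← hd]] at ψ
      have hcl : Subgroup.closure ({z, z * (g : G)} : Set G) = nz M := by
        refine le_antisymm ((Subgroup.closure_le _).2 ?_) ?_
        · rintro x (rfl | rfl)
          · exact H.zN
          · exact mul_mem H.zN (Subgroup.le_normalizer g.2)
        · intro x hx
          obtain ⟨a, ha, c, hc, rfl⟩ := H.decompose hx
          refine mul_mem ?_ ?_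
          · rw [← hgM] at ha
            refine Subgroup.zpowers_le.2 ?_ ha
            have hgm : z * (z * (g : G)) ∈ Subgroup.closure ({z, z * (g : G)} : Set G) :=
              mul_mem (Subgroup.subset_closure (Or.inl rfl)) (Subgroup.subset_closure (Or.inr rfl))
            rwa [hzz'] at hgm
          · rcases hcz c hc with rfl | rfl
            · exact one_mem _
            · exact Subgroup.subset_closure (Or.inl rfl)
      exact ⟨(MulEquiv.subgroupCongr hcl).symm.trans ψ⟩

end Hyp

end Cfsg.Agent.H77.TIInv
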